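import Cfsg.Agent.H15.J3.InvSet

/-!
The order of the centraliser of an involution of `3·J₃`, and its two distinguished subgroups.
-/

set_option autoImplicit false

namespace Cfsg.Agent.H15.J3

open Cfsg.Spor Matrix Cfsg.Agent.H16

theorem qCancel : ∀ i j : Fin 32, qMul (InvData.qInv.getD j 0) i = 0 → i = j := by decide +kernel

theorem hCancel : ∀ i j : Fin 60, hMul (InvData.hInv.getD j 0) i = 0 → i = j := by decide +kernel

theorem app_drop (M : List ℕ) (hM : M.drop 5 = [0, 0, 0, 0]) (u i : ℕ)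
    (hi : i = u % 32 + 32 * ((u / 512) % 32)) : app M u = app M (spread i) := by
  have hz : ∀ n, 5 ≤ n → M.getD n 0 = 0 := by
    intro n hn
    have e : M.getD n 0 = (M.drop 5).getD (n - 5) 0 := by
      simp [List.getD_eq_getElem?_getD, List.getElem?_drop, show 5 + (n - 5) = n by omega]
    rw [e, hM]
    rcases (by omega : n - 5 = 0 ∨ n - 5 = 1 ∨ n - 5 = 2 ∨ n - 5 = 3 ∨ 4 ≤ n - 5) with
      h | h | h | h | h
    iterate 4 rw [h]; rfl
    exact List.getD_eq_default _ _ (by simpa using h)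
  have hp : ∀ a b, pick a b 0 = 0 := by decide
  have hlt : i % 32 = u % 32 ∧ i / 32 = u / 512 % 32 := by omega
  have hb : ∀ n < 5, (spread i).testBit n = u.testBit n ∧
      (spread i).testBit (9 + n) = u.testBit (9 + n) := by
    intro n hn
    rw [spread, hlt.1, hlt.2, show (32 : ℕ) = 2 ^ 5 from rfl, show (512 : ℕ) = 2 ^ 9 from rfl]
    simp only [Nat.testBit_or, Nat.testBit_shiftLeft, Nat.testBit_mod_two_pow,
      Nat.testBit_div_two_pow]
    simp [hn, show ¬ 9 ≤ n by omega, show ¬ 9 + n < 5 by omega, Nat.add_comm n 9]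
  have : ∀ n, n ≤ 9 → appN M u n = appN M (spread i) n := by
    intro n
    induction n with
    | zero => intro _; rfl
    | succ n ih =>
      intro hn
      rw [appN, appN, ih (by omega)]
      by_cases h5 : n < 5
      · rw [(hb n h5).1, (hb n h5).2]
      · rw [hz n (by omega), hp, hp]
  exact this 9 le_rfl

section

variable {F : Type*} [Field F] [Fintype F] {ω : F} (hG : Good F ω)
include hG

theorem toMat_zipXor {M N : List ℕ} (hM : M.length = 9) (hN : N.length = 9) :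
    toMat ω (List.zipWith (fun a b => a ^^^ b) M N) = toMat ω M + toMat ω N := by
  ext w z
  have h := idx_lt z
  simp only [toMat_apply, Matrix.add_apply]
  rw [List.getD_eq_getElem _ _ (by simp [hM, hN]; exact h),
    List.getD_eq_getElem _ _ (by omega), List.getD_eq_getElem _ _ (by omega), List.getElem_zipWith,
    val_xor hG, Pi.add_apply]

theorem isotropic_iff_orbit {x : F9 → F} (hx : x ≠ 0) :
    ∑ z, x z ^ 3 = 0 ↔ ∃ g : ↥(threeJ3 F ω), (g.1 : Matrix F9 F9 F) *ᵥ val ω 72 = x := by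
  classical
  letI : MulAction ↥(threeJ3 F ω) (F9 → F) :=
    { smul := fun g v => (g.1 : Matrix F9 F9 F) *ᵥ v
      one_smul := fun v => one_mulVec v
      mul_smul := fun g h v => (mulVec_mulVec v (g.1 : Matrix F9 F9 F) (h.1 : Matrix F9 F9 F)).symm }
  have hsub : val ω '' isoCodes ⊆ MulAction.orbit ↥(threeJ3 F ω) (val ω 72) := by
    rintro _ ⟨v, ⟨hv, h0, hp⟩, rfl⟩
    obtain ⟨g, hg, c, hc, e⟩ :=
      isotropic_reduce hG (val_ne_zero hG hv h0) (by rw [sum_cube hG, hp]; simp)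
    obtain ⟨s, hs', es⟩ := scalar_mem hG (inv_ne_zero hc)
    refine MulAction.mem_orbit_symm.1 ⟨⟨s * g, mul_mem hs' hg⟩, ?_⟩
    show ((s * g : GL F9 F) : Matrix F9 F9 F) *ᵥ val ω v = val ω 72
    rw [Units.val_mul, ← mulVec_mulVec, e, es, smul_mulVec, one_mulVec, smul_smul,
      inv_mul_cancel₀ hc, one_smul]
  have horb : (MulAction.orbit ↥(threeJ3 F ω) (val ω 72)).ncard = 130815 := by
    have h3 := (MulAction.stabilizer ↥(threeJ3 F ω) (val ω 72)).card_mul_index
    rw [MulAction.index_stabilizer, card_threeJ3 hG,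
      show Nat.card (MulAction.stabilizer ↥(threeJ3 F ω) (val ω 72)) = 1152 from card_vStab hG] at h3
    omega
  have heq : val ω '' isoCodes = MulAction.orbit ↥(threeJ3 F ω) (val ω 72) := by
    refine Set.eq_of_subset_of_ncard_le hsub ?_ (Set.toFinite _)
    rw [Set.InjOn.ncard_image (fun u hu v hv h => val_inj hG hu.1 hv.1 h), horb, ncard_isoCodes]
  constructor
  · intro hs
    obtain ⟨v, hv, rfl⟩ := val_surj hG x
    have hmem : v ∈ isoCodes := ⟨hv, fun h => hx (by rw [h, val_zero]), by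
      rw [sum_cube hG] at hs
      cases hp : parity9 v
      · rfl
      · rw [hp] at hs; simp at hs⟩
    have h : val ω v ∈ val ω '' isoCodes := Set.mem_image_of_mem _ hmem
    rw [heq] at h
    exact h
  · rintro ⟨g, hg⟩
    obtain ⟨v, ⟨hv, -, hp⟩, e⟩ : x ∈ val ω '' isoCodes := heq ▸ ⟨g, hg⟩
    rw [← e, sum_cube hG, hp]; simp

variable (F ω) in
omit hG in
/-- Nonzero isotropic vectors fixed by the involution. -/
def fixedIso : Set (F9 → F) :=
  {x | x ≠ 0 ∧ ∑ z, x z ^ 3 = 0 ∧ toMat ω InvData.zc *ᵥ x = x}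

theorem ncard_fixedIso_le : (fixedIso F ω).ncard ≤ 255 := by
  classical
  have hcard : ((Finset.range 1024).filter fun i => fixTest' i = true).card = 255 := by
    have h := fixTest'_count
    rw [countFrom_spec, Nat.zero_add, ← Finset.range_eq_Ico] at h
    exact h
  rw [← hcard]
  refine le_trans (Set.ncard_le_ncard (t := (fun i => val ω (app InvData.fixB (spread i))) ''
    ↑((Finset.range 1024).filter fun i => fixTest' i = true)) ?_ (Set.toFinite _)) ?_
  swap
  · exact le_trans (Set.ncard_image_le (Finset.finite_toSet _)) (Set.ncard_coe_finset _).le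
  rintro x ⟨hx, hs, hfix⟩
  obtain ⟨v, hv, rfl⟩ := val_surj hG x
  obtain ⟨e, hdrop, hlen, hb⟩ := fixed_ok
  have e' := congrArg (toMat ω) e
  rw [toMat_zipXor hG (mm_length _ _) (mm_length _ _), toMat_mm hG, toMat_mm hG,
    toMat_zipXor hG (zc_spec hG).1 (idM_spec hG).1, toMat_idM hG] at e'
  have hvB : val ω v = val ω (app InvData.fixB (app InvData.fixP v)) := by
    rw [val_app hG, val_app hG, mulVec_mulVec]
    conv_lhs => rw [← one_mulVec (val ω v), ← e']
    rw [add_mulVec, ← mulVec_mulVec (N := toMat ω InvData.zc + 1), add_mulVec, hfix, one_mulVec,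
      show val ω v + val ω v = 0 from funext fun z => add_self hG _, mulVec_zero, add_zero]
  generalize app InvData.fixP v = u at hvB
  refine ⟨u % 32 + 32 * ((u / 512) % 32), ?_, ?_⟩
  · rw [Finset.mem_coe, Finset.mem_filter, Finset.mem_range, fixTest', forceNat_eq,
      appF_eq hlen, ← app_drop _ hdrop u _ rfl, oddWt_eq]
    refine ⟨by omega, ?_⟩
    have hve := val_inj hG hv (app_bound hb u) hvB
    rw [← hve]
    have hv0 : Nat.beq v 0 = false := by
      rw [← Bool.not_eq_true]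
      exact fun h => hx (by rw [Nat.eq_of_beq_eq_true h, val_zero])
    rw [hv0]
    rw [sum_cube hG] at hs
    cases hp : parity9 v
    · rfl
    · rw [hp] at hs; simp at hs
  · show val ω (app InvData.fixB (spread _)) = val ω v
    rw [← app_drop _ hdrop u _ rfl, hvB]

variable (F ω) in
omit hG in
/-- The centraliser of the involution in the triple cover. -/
noncomputable def zCent (hG : Good F ω) : Subgroup ↥(threeJ3 F ω) :=
  Subgroup.centralizer ({zEl hG} : Set ↥(threeJ3 F ω))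

theorem card_zCent_le : Nat.card ↥(zCent F ω hG) ≤ 5760 := by
  classical
  haveI : Finite ↥(threeJ3 F ω) := by
    haveI : Finite (GL F9 F) := inferInstance
    infer_instance
  let A := {g : ↥(threeJ3 F ω) | g⁻¹ * zEl hG * g ∈ vStab F ω hG}
  -- lower bound
  choose k hk using invEl_conj hG
  have hkey : ∀ (n : Fin 51) (c : ↥(zCent F ω hG)),
      (c.1 * k n)⁻¹ * zEl hG * (c.1 * k n) = invEl hG n := by
    intro n c
    have hc : zEl hG * c.1 = c.1 * zEl hG :=
      Subgroup.mem_centralizer_singleton_iff.1 c.2 |>.symm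
    have h1 : (c.1 * k n)⁻¹ * zEl hG * (c.1 * k n) = (k n)⁻¹ * zEl hG * k n := by
      rw [show (c.1 * k n)⁻¹ * zEl hG * (c.1 * k n) =
        (k n)⁻¹ * (c.1⁻¹ * (zEl hG * c.1)) * k n by group, hc, inv_mul_cancel_left]
    rw [h1, ← hk n]; group
  have h1 : 51 * Nat.card ↥(zCent F ω hG) ≤ Nat.card A := by
    rw [← Fintype.card_fin 51, ← Nat.card_eq_fintype_card, ← Nat.card_prod]
    refine Nat.card_le_card_of_injective (fun p => ⟨p.2.1 * k p.1, ?_⟩) ?_
    · show (p.2.1 * k p.1)⁻¹ * zEl hG * (p.2.1 * k p.1) ∈ vStab F ω hG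
      rw [hkey]; exact (sEl hG _).2
    · rintro ⟨n, c⟩ ⟨n', c'⟩ h
      have h' : c.1 * k n = c'.1 * k n' := congrArg Subtype.val h
      obtain rfl : n = n' := invEl_inj hG (by rw [← hkey n c, h', hkey n' c'])
      obtain rfl : c = c' := Subtype.ext (mul_right_cancel h')
      rfl
  -- upper bound
  have hrep : ∀ x : fixedIso F ω, ∃ g : ↥(threeJ3 F ω),
      (g.1 : Matrix F9 F9 F) *ᵥ val ω 72 = x.1 := fun x =>
    (isotropic_iff_orbit hG x.2.1).1 x.2.2.1
  choose r hr using hrep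
  have hmem : ∀ g : A, (g.1.1 : Matrix F9 F9 F) *ᵥ val ω 72 ∈ fixedIso F ω := by
    rintro ⟨g, hg⟩
    have hne : (g.1 : Matrix F9 F9 F) *ᵥ val ω 72 ≠ 0 := fun h =>
      val_ne_zero hG (by norm_num : 72 < 2 ^ 18) (by norm_num)
        ((mulVec_injective_iff_isUnit.2 g.1.isUnit) (by rw [h, mulVec_zero]))
    refine ⟨hne, (isotropic_iff_orbit hG hne).2 ⟨g, rfl⟩, ?_⟩
    have hg' : ((g⁻¹ * zEl hG * g).1 : Matrix F9 F9 F) *ᵥ val ω 72 = val ω 72 := hg
    conv_rhs => rw [← hg']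
    rw [← zEl_mat hG, mulVec_mulVec, mulVec_mulVec, ← mat_mul hG, ← mat_mul hG,
      show g * (g⁻¹ * zEl hG * g) = zEl hG * g by group]
  have h2 : Nat.card A ≤ Nat.card ↥(vStab F ω hG) * (fixedIso F ω).ncard := by
    rw [← Nat.card_coe_set_eq, ← Nat.card_prod]
    refine Nat.card_le_card_of_injective (fun g => (⟨(r ⟨_, hmem g⟩)⁻¹ * g.1, ?_⟩, ⟨_, hmem g⟩)) ?_
    · show (((r ⟨_, hmem g⟩)⁻¹ * g.1).1 : Matrix F9 F9 F) *ᵥ val ω 72 = val ω 72
      have e := hr ⟨_, hmem g⟩
      generalize r ⟨_, hmem g⟩ = y at e ⊢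
      simp only at e
      rw [mat_mul hG, ← mulVec_mulVec, ← e, mulVec_mulVec,
        show ((y⁻¹).1 : Matrix F9 F9 F) * (y.1 : Matrix F9 F9 F) = 1 from Units.inv_mul _,
        one_mulVec]
    · intro g g' h
      simp only [Prod.mk.injEq] at h
      have ha : (r ⟨_, hmem g⟩)⁻¹ * g.1 = (r ⟨_, hmem g'⟩)⁻¹ * g'.1 := congrArg Subtype.val h.1
      have e : (⟨_, hmem g⟩ : fixedIso F ω) = ⟨_, hmem g'⟩ := h.2
      rw [congrArg r e] at ha
      exact Subtype.ext (mul_left_cancel ha)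
  rw [card_vStab hG] at h2
  have := ncard_fixedIso_le hG
  have := Nat.mul_le_mul_left 1152 this
  omega

theorem qEl_exists : ∀ i < 32, ∃ g : ↥(threeJ3 F ω), (g.1 : Matrix F9 F9 F) = toMat ω (qc i) := by
  intro i
  induction i using Nat.strong_induction_on with
  | _ i ih =>
    intro hi
    by_cases h0 : i = 0
    · subst h0; exact ⟨1, by rw [qs_ok.1, toMat_idM hG]; rfl⟩
    · obtain ⟨hlt, -, hw, e⟩ := qPar_ok ⟨i, hi⟩ h0
      obtain ⟨x, hx⟩ := exists_el hG (ev_mem_hSet hG le_rfl hw)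
      obtain ⟨y, hy⟩ := ih _ hlt (lt_trans hlt hi)
      exact ⟨x * y, by rw [mat_mul hG, hx, hy, e, toMat_mm hG]⟩

theorem hEl_exists : ∀ i < 60, ∃ g : ↥(threeJ3 F ω), (g.1 : Matrix F9 F9 F) = toMat ω (hc i) := by
  intro i
  induction i using Nat.strong_induction_on with
  | _ i ih =>
    intro hi
    by_cases h0 : i = 0
    · subst h0; exact ⟨1, by rw [hs_ok.1, toMat_idM hG]; rfl⟩
    · obtain ⟨hlt, -, hw, e⟩ := hPar_ok ⟨i, hi⟩ h0
      obtain ⟨x, hx⟩ := exists_el hG (ev_mem_hSet hG le_rfl hw)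
      obtain ⟨y, hy⟩ := ih _ hlt (lt_trans hlt hi)
      exact ⟨x * y, by rw [mat_mul hG, hx, hy, e, toMat_mm hG]⟩

/-- An element of the normal subgroup. -/
noncomputable def qEl (i : Fin 32) : ↥(threeJ3 F ω) := (qEl_exists hG i i.2).choose

/-- An element of the complement. -/
noncomputable def hEl (i : Fin 60) : ↥(threeJ3 F ω) := (hEl_exists hG i i.2).choose

theorem qEl_mat (i : Fin 32) : ((qEl hG i).1 : Matrix F9 F9 F) = toMat ω (qc i) :=
  (qEl_exists hG i i.2).choose_spec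

theorem hEl_mat (i : Fin 60) : ((hEl hG i).1 : Matrix F9 F9 F) = toMat ω (hc i) :=
  (hEl_exists hG i i.2).choose_spec

end

/-- Product of indices in the normal subgroup. -/
noncomputable def qm (i j : Fin 32) : Fin 32 := ⟨qMul i j, by
  have h := allFrom_spec qMul_ok (i * 32 + j) (Nat.zero_le _) (by omega)
  rw [qMulCheck, show (i.1 * 32 + j) / 32 = i by omega, show (i.1 * 32 + j) % 32 = j by omega,
    forceNat_eq, Bool.and_eq_true, Nat.blt_eq] at h
  exact h.1⟩

/-- Product of indices in the complement. -/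
noncomputable def hm (i j : Fin 60) : Fin 60 := ⟨hMul i j, by
  have h := allFrom_spec hMul_ok (i * 60 + j) (Nat.zero_le _) (by omega)
  rw [hMulCheck, show (i.1 * 60 + j) / 60 = i by omega, show (i.1 * 60 + j) % 60 = j by omega,
    forceNat_eq, Bool.and_eq_true, Nat.blt_eq] at h
  exact h.1⟩

/-- Conjugation of indices. -/
noncomputable def cm (h : Fin 60) (i : Fin 32) : Fin 32 := ⟨conjQ h i, by
  have e := allFrom_spec conj_ok (h * 32 + i) (Nat.zero_le _) (by omega)
  rw [conjCheck, show (h.1 * 32 + i) / 32 = h by omega, show (h.1 * 32 + i) % 32 = i by omega,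
    forceNat_eq, Bool.and_eq_true, Nat.blt_eq] at e
  exact e.1⟩

/-- Inverse index in the normal subgroup. -/
def qi (i : Fin 32) : Fin 32 := ⟨InvData.qInv.getD i 0, (qs_ok.2.2.2 i).2.2.1⟩

/-- Inverse index in the complement. -/
def hi' (i : Fin 60) : Fin 60 := ⟨InvData.hInv.getD i 0, (hs_ok.2 i).2.2.1⟩

/-- The index of the involution. -/
def zI : Fin 32 := ⟨InvData.zQ, qs_ok.2.2.1⟩

section

variable {F : Type*} [Field F] [Fintype F] {ω : F} (hG : Good F ω)
include hG

theorem qEl_mul (i j : Fin 32) : qEl hG i * qEl hG j = qEl hG (qm i j) := by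
  have h := allFrom_spec qMul_ok (i * 32 + j) (Nat.zero_le _) (by omega)
  rw [qMulCheck, show (i.1 * 32 + j) / 32 = i by omega, show (i.1 * 32 + j) % 32 = j by omega,
    forceNat_eq, Bool.and_eq_true, mmF_eq (qs_ok.2.2.2 i).1 (qs_ok.2.2.2 j).1] at h
  exact ext_mat hG (by
    rw [mat_mul hG, qEl_mat hG, qEl_mat hG, qEl_mat hG, ← toMat_mm hG, natListEq_eq h.2]; rfl)

theorem hEl_mul (i j : Fin 60) : hEl hG i * hEl hG j = hEl hG (hm i j) := by
  have h := allFrom_spec hMul_ok (i * 60 + j) (Nat.zero_le _) (by omega)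
  rw [hMulCheck, show (i.1 * 60 + j) / 60 = i by omega, show (i.1 * 60 + j) % 60 = j by omega,
    forceNat_eq, Bool.and_eq_true, mmF_eq (hs_ok.2 i).1 (hs_ok.2 j).1] at h
  exact ext_mat hG (by
    rw [mat_mul hG, hEl_mat hG, hEl_mat hG, hEl_mat hG, ← toMat_mm hG, natListEq_eq h.2]; rfl)

theorem hEl_conj (h : Fin 60) (i : Fin 32) :
    hEl hG h * qEl hG i = qEl hG (cm h i) * hEl hG h := by
  have e := allFrom_spec conj_ok (h * 32 + i) (Nat.zero_le _) (by omega)
  rw [conjCheck, show (h.1 * 32 + i) / 32 = h by omega, show (h.1 * 32 + i) % 32 = i by omega,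
    forceNat_eq, Bool.and_eq_true, Nat.blt_eq] at e
  have e' := natListEq_eq e.2
  rw [mmF_eq (hs_ok.2 h).1 (qs_ok.2.2.2 i).1,
    mmF_eq (qs_ok.2.2.2 ⟨_, e.1⟩).1 (hs_ok.2 h).1] at e'
  exact ext_mat hG (by
    rw [mat_mul hG, mat_mul hG, hEl_mat hG, qEl_mat hG, qEl_mat hG, ← toMat_mm hG, e',
      toMat_mm hG]; rfl)

theorem qEl_zero : qEl hG 0 = 1 :=
  ext_mat hG (by rw [qEl_mat hG, show ((0 : Fin 32) : ℕ) = 0 from rfl, qs_ok.1, toMat_idM hG]; rfl)

theorem hEl_zero : hEl hG 0 = 1 :=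
  ext_mat hG (by rw [hEl_mat hG, show ((0 : Fin 60) : ℕ) = 0 from rfl, hs_ok.1, toMat_idM hG]; rfl)

theorem qEl_zI : qEl hG zI = zEl hG :=
  ext_mat hG (by rw [qEl_mat hG, zEl_mat hG, ← qs_ok.2.1]; rfl)

theorem qEl_inv (i : Fin 32) : qEl hG (qi i) = (qEl hG i)⁻¹ := by
  refine eq_inv_of_mul_eq_one_left ?_
  rw [qEl_mul, show qm (qi i) i = 0 from Fin.ext (qs_ok.2.2.2 i).2.2.2.1, qEl_zero]

theorem hEl_inv (i : Fin 60) : hEl hG (hi' i) = (hEl hG i)⁻¹ := by
  refine eq_inv_of_mul_eq_one_left ?_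
  rw [hEl_mul, show hm (hi' i) i = 0 from Fin.ext (hs_ok.2 i).2.2.2.1, hEl_zero]

theorem qEl_mem (i : Fin 32) : qEl hG i ∈ zCent F ω hG :=
  Subgroup.mem_centralizer_singleton_iff.2 (ext_mat hG (by
    rw [mat_mul hG, mat_mul hG, qEl_mat hG, zEl_mat hG, ← toMat_mm hG, ← toMat_mm hG,
      (qs_ok.2.2.2 i).2.2.2.2]))

theorem hEl_mem (i : Fin 60) : hEl hG i ∈ zCent F ω hG :=
  Subgroup.mem_centralizer_singleton_iff.2 (ext_mat hG (by
    rw [mat_mul hG, mat_mul hG, hEl_mat hG, zEl_mat hG, ← toMat_mm hG, ← toMat_mm hG,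
      (hs_ok.2 i).2.2.2.2]))

theorem sc3_spec (c : ℕ) (hc : c < 3) : toMat ω (sc3 c) = ω ^ c • (1 : Matrix F9 F9 F) := by
  interval_cases c
  · rw [sc3, pow_zero, one_smul]; exact toMat_idM hG
  · rw [sc3, pow_one]; exact g7_three hG
  · rw [sc3, sq]
    show toMat ω (mm (g7 3) (g7 3)) = _
    rw [toMat_mm hG, g7_three hG, smul_mul_assoc, one_mul, smul_smul]

theorem sc3_len (c : Fin 3) : (sc3 c).length = 9 ∧ ∀ x ∈ sc3 c, x < 2 ^ 18 := by
  revert c; decide +kernel

theorem center_eq_sc3 {g : ↥(threeJ3 F ω)} (hg : g ∈ Subgroup.center ↥(threeJ3 F ω)) :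
    ∃ c : Fin 3, (g.1 : Matrix F9 F9 F) = toMat ω (sc3 c) := by
  obtain ⟨d, hd, e⟩ := center_scalar hG hg
  obtain ⟨k, -, ek⟩ := val_surj hG (fun _ => d)
  have hF : ∃ c : Fin 3, d = ω ^ c.1 := by
    have := congrFun ek (pt 0)
    simp only [val, cf] at this
    rw [← this] at hd ⊢
    clear this ek e
    generalize k.testBit (idx (pt 0)) = a at hd ⊢
    generalize k.testBit (9 + idx (pt 0)) = b at hd ⊢
    cases a <;> cases b
    · simp at hd
    · exact ⟨1, by simp⟩
    · exact ⟨0, by simp⟩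
    · exact ⟨2, by simp [sq, w_sq hG, add_comm]⟩
  obtain ⟨c, rfl⟩ := hF
  exact ⟨c, by rw [e, sc3_spec hG c c.2]⟩

/-- Modulo scalars the two subgroups meet trivially. -/
theorem meet_trivial {g : ↥(threeJ3 F ω)} (hg : g ∈ Subgroup.center ↥(threeJ3 F ω))
    (i : Fin 32) (h : Fin 60) (e : g * qEl hG i = hEl hG h) : i = 0 ∧ h = 0 := by
  obtain ⟨c, hsc⟩ := center_eq_sc3 hG hg
  have e' := congrArg (fun y : ↥(threeJ3 F ω) => (y.1 : Matrix F9 F9 F)) e
  rw [mat_mul hG, hsc, qEl_mat hG, hEl_mat hG, ← toMat_mm hG] at e'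
  have hlist : mm (sc3 c) (qc i) = hc h := code_eq hG (mm_length _ _) (hs_ok.2 h).1 (by
      intro x hx
      simp only [mm, List.mem_map] at hx
      obtain ⟨k, -, rfl⟩ := hx
      exact app_bound (sc3_len hG c).2 _) (hs_ok.2 h).2.1 e'
  have s := allFrom_spec sep_ok (c * 1920 + h * 32 + i) (Nat.zero_le _) (by omega)
  rw [sepCheck, show (c.1 * 1920 + h * 32 + i) / 1920 = c by omega,
    show (c.1 * 1920 + h * 32 + i) % 32 = i by omega,
    show (c.1 * 1920 + h * 32 + i) % 1920 / 32 = h by omega,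
    mmF_eq (sc3_len hG c).1 (qs_ok.2.2.2 i).1, hlist] at s
  have hrefl : ∀ l : List ℕ, natListEq l l = true := by
    intro l
    induction l with
    | nil => rfl
    | cons a l ih =>
      show (Nat.beq a a && natListEq l l) = true
      rw [Nat.beq_refl, ih]; rfl
  rw [hrefl] at s
  simp only [Bool.not_true, Bool.false_or, Bool.and_eq_true] at s
  exact ⟨Fin.ext (Nat.eq_of_beq_eq_true s.1), Fin.ext (Nat.eq_of_beq_eq_true s.2)⟩

end

end Cfsg.Agent.H15.J3
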