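import Cfsg.Agent.H15.J3.CentCount
import Cfsg.Agent.H24.Extraspecial

/-!
The centraliser of an involution of `J₃` is a split extension of an extraspecial group of order
`32` by the alternating group of degree five.
-/

set_option autoImplicit false

namespace Cfsg.Agent.H15.J3

open Cfsg.Spor Matrix Cfsg.Agent.H16
open scoped commutatorElement

theorem qTab_spec (i j : Fin 32) :
    (qm i j = qm j i ∨ qm i j = qm zI (qm j i)) ∧
    (qm i i = 0 ∨ qm i i = zI) ∧
    (qm i i = 0 → i ≠ 0 → i ≠ zI → qm j j = 0 → j ≠ 0 → j ≠ zI → qm i j = qm j i →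
      j = i ∨ j = qm i zI) := by
  have key : ∀ a b : Fin 32, _ := fun a b => allFrom_spec qTab_ok (a.1 * 32 + b.1) (Nat.zero_le _) (by omega)
  have hii := key i i
  have hij := key i j
  simp only [qTab, forceNat_eq, Bool.and_eq_true, Bool.or_eq_true, Bool.not_eq_true',
    show (i.1 * 32 + i) / 32 = i by omega, show (i.1 * 32 + i) % 32 = i by omega,
    show (i.1 * 32 + j) / 32 = i by omega, show (i.1 * 32 + j) % 32 = j by omega] at hii hij
  refine ⟨?_, ?_, ?_⟩
  · rcases hij.1.1 with h | h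
    · exact Or.inl (Fin.ext (Nat.eq_of_beq_eq_true h))
    · exact Or.inr (Fin.ext (Nat.eq_of_beq_eq_true h))
  · rcases hii.1.2 with (h | h) | h
    · rw [Nat.beq_refl] at h; exact absurd h (by decide)
    · exact Or.inl (Fin.ext (Nat.eq_of_beq_eq_true h))
    · exact Or.inr (Fin.ext (Nat.eq_of_beq_eq_true h))
  · intro h1 h2 h3 h4 h5 h6 h7
    have b : ∀ {a c : Fin 32}, a = c → Nat.beq a.1 c.1 = true := fun e => e ▸ Nat.beq_refl _
    have nb : ∀ {a c : Fin 32}, a ≠ c → Nat.beq a.1 c.1 ≠ true := fun e h =>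
      e (Fin.ext (Nat.eq_of_beq_eq_true h))
    rcases hij.2 with (((((((h | h) | h) | h) | h) | h) | h) | h) | h
    · exact absurd (b h1) (by rw [show (qm i i).1 = qMul i i from rfl, show ((0 : Fin 32) : ℕ) = 0 from rfl, h]; decide)
    · exact absurd h (nb h2)
    · exact absurd h (nb h3)
    · exact absurd (b h4) (by rw [show (qm j j).1 = qMul j j from rfl, show ((0 : Fin 32) : ℕ) = 0 from rfl, h]; decide)
    · exact absurd h (nb h5)
    · exact absurd h (nb h6)
    · exact absurd (b h7) (by rw [show (qm i j).1 = qMul i j from rfl, show (qm j i).1 = qMul j i from rfl, h]; decide)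
    · exact Or.inl (Fin.ext (Nat.eq_of_beq_eq_true h))
    · exact Or.inr (Fin.ext (Nat.eq_of_beq_eq_true h))

theorem qm_cancel : ∀ i j : Fin 32, qm (qi j) i = 0 → i = j := fun i j h =>
  qCancel i j (congrArg Fin.val h)

theorem hm_cancel : ∀ i j : Fin 60, hm (hi' j) i = 0 → i = j := fun i j h =>
  hCancel i j (congrArg Fin.val h)

theorem qNon_spec (i : Fin 32) (h0 : i ≠ 0) (hz : i ≠ zI) : ∃ j, qm i j ≠ qm j i := by
  obtain ⟨h1, h2⟩ := qNon_ok i (fun h => h0 (Fin.ext h)) (fun h => hz (Fin.ext h))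
  exact ⟨⟨_, h1⟩, fun h => h2 (congrArg Fin.val h)⟩

theorem zI_ne : zI ≠ 0 := by decide +kernel

/-- The permutation of five points given by an element of the complement. -/
noncomputable def permOf (g : Fin 60) : Equiv.Perm (Fin 5) where
  toFun := pim g
  invFun := pim (hi' g)
  left_inv k := by
    have h := allFrom_spec pim_ok ((hi' g).1 * 60 + g) (Nat.zero_le _) (by omega)
    rw [pimCheck, decide_eq_true_eq, show ((hi' g).1 * 60 + g.1) / 60 = (hi' g).1 by omega,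
      show ((hi' g).1 * 60 + g.1) % 60 = g.1 by omega] at h
    rw [h k, show hMul (hi' g).1 g.1 = 0 from (hs_ok.2 g).2.2.2.1, pim_one]
  right_inv k := by
    have h := allFrom_spec pim_ok (g.1 * 60 + (hi' g).1) (Nat.zero_le _) (by omega)
    rw [pimCheck, decide_eq_true_eq, show (g.1 * 60 + (hi' g).1) / 60 = g.1 by omega,
      show (g.1 * 60 + (hi' g).1) % 60 = (hi' g).1 by omega] at h
    have e : hMul g.1 (hi' g).1 = 0 := by
      have key : ∀ a : Fin 60, hMul a.1 (InvData.hInv.getD a 0) = 0 := by decide +kernel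
      exact key g
    rw [h k, e, pim_one]

theorem permOf_mul (a b : Fin 60) : permOf a * permOf b = permOf (hm a b) := by
  refine Equiv.ext fun k => ?_
  have h := allFrom_spec pim_ok (a.1 * 60 + b.1) (Nat.zero_le _) (by omega)
  rw [pimCheck, decide_eq_true_eq, show (a.1 * 60 + b.1) / 60 = a by omega,
    show (a.1 * 60 + b.1) % 60 = b by omega] at h
  exact h k

theorem sign_permOf : ∀ g : Fin 60, Equiv.Perm.sign (permOf g) = 1 := by decide +kernel

theorem card_A5 : Nat.card ↥(alternatingGroup (Fin 5)) = 60 := by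
  rw [nat_card_alternatingGroup, Nat.card_eq_fintype_card, Fintype.card_fin]; rfl

section

variable {F : Type*} [Field F] [Fintype F] {ω : F} (hG : Good F ω)
include hG

variable (F ω) in
omit hG in
/-- The projection. -/
abbrev prj : ↥(threeJ3 F ω) →* J3 F ω := QuotientGroup.mk' (Subgroup.center ↥(threeJ3 F ω))

/-- The involution of `J₃`. -/
noncomputable def tJ : J3 F ω := prj F ω (zEl hG)

theorem mem_center_three {g : ↥(threeJ3 F ω)} (hg : g ∈ Subgroup.center ↥(threeJ3 F ω)) :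
    g ^ 3 = 1 := by
  have := congrArg Subtype.val
    (pow_card_eq_one' (x := (⟨g, hg⟩ : ↥(Subgroup.center ↥(threeJ3 F ω)))))
  rw [card_center hG] at this
  exact this

theorem orderOf_tJ : orderOf (tJ hG) = 2 := by
  haveI : Fact (Nat.Prime 2) := ⟨Nat.prime_two⟩
  refine orderOf_eq_prime (by rw [tJ, ← map_pow, pow_two, zEl_sq hG, map_one]) fun h => ?_
  rw [tJ, QuotientGroup.mk'_apply, QuotientGroup.eq_one_iff] at h
  have h3 := mem_center_three hG h
  rw [pow_succ, pow_two, zEl_sq hG, one_mul] at h3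
  exact zEl_ne hG h3

variable (F ω) in
omit hG in
/-- The centraliser in `J₃`. -/
abbrev Cen (hG : Good F ω) : Subgroup (J3 F ω) :=
  Subgroup.centralizer ({tJ hG} : Set (J3 F ω))

theorem prj_mem {g : ↥(threeJ3 F ω)} (hg : g ∈ zCent F ω hG) : prj F ω g ∈ Cen F ω hG :=
  Subgroup.mem_centralizer_singleton_iff.2 (by
    rw [tJ, ← map_mul, ← map_mul, Subgroup.mem_centralizer_singleton_iff.1 hg])

/-- Into the centraliser. -/
noncomputable def toCen : ↥(zCent F ω hG) →* ↥(Cen F ω hG) :=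
  ((prj F ω).comp (zCent F ω hG).subtype).codRestrict _ fun g => prj_mem hG g.2

theorem toCen_val (g : ↥(zCent F ω hG)) : (toCen hG g).1 = prj F ω g.1 := rfl

theorem toCen_eq_iff (g g' : ↥(zCent F ω hG)) :
    toCen hG g = toCen hG g' ↔ ∃ c ∈ Subgroup.center ↥(threeJ3 F ω), g'.1 = c * g.1 := by
  rw [← Subtype.coe_inj, toCen_val, toCen_val, QuotientGroup.mk'_eq_mk']
  constructor
  · rintro ⟨c, hc, e⟩
    exact ⟨c, hc, by rw [← e, Subgroup.mem_center_iff.1 hc g.1]⟩
  · rintro ⟨c, hc, e⟩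
    exact ⟨c, hc, by rw [e, Subgroup.mem_center_iff.1 hc g.1]⟩

theorem toCen_surj : Function.Surjective (toCen hG) := by
  rintro ⟨x, hx⟩
  obtain ⟨g, rfl⟩ := QuotientGroup.mk'_surjective (Subgroup.center ↥(threeJ3 F ω)) x
  refine ⟨⟨g, ?_⟩, rfl⟩
  have h := Subgroup.mem_centralizer_singleton_iff.1 hx
  rw [tJ, ← map_mul, ← map_mul, QuotientGroup.mk'_eq_mk'] at h
  obtain ⟨c, hc, e⟩ := h
  refine Subgroup.mem_centralizer_singleton_iff.2 ?_
  have hcc : ∀ y, y * c = c * y := Subgroup.mem_center_iff.1 hc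
  -- `g z c = z g`, so the scalar squares to one
  have h1 : zEl hG * g = g * zEl hG * c := e.symm
  have h2 : g = g * (c * c) := by
    have : zEl hG * (zEl hG * g) = g * (c * c) := by
      rw [h1, ← mul_assoc, ← mul_assoc, h1, mul_assoc (g * zEl hG) c, ← hcc, mul_assoc g,
        ← mul_assoc (zEl hG) (zEl hG), zEl_sq hG, one_mul, mul_assoc]
    rwa [← mul_assoc, zEl_sq hG, one_mul] at this
  have h3 := mem_center_three hG hc
  have hc2 : c * c = 1 := (mul_eq_left.1 h2.symm)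
  rw [pow_succ, pow_two, hc2, one_mul] at h3
  rw [h1, h3, mul_one]

/-- Triples of a scalar, an element of the normal subgroup and one of the complement. -/
noncomputable def triple (p : ↥(Subgroup.center ↥(threeJ3 F ω)) × Fin 32 × Fin 60) :
    ↥(zCent F ω hG) :=
  ⟨p.1.1 * (qEl hG p.2.1 * hEl hG p.2.2), mul_mem (Subgroup.center_le_centralizer _ p.1.2)
    (mul_mem (qEl_mem hG _) (hEl_mem hG _))⟩

theorem triple_bij : Function.Bijective (triple hG) := by
  haveI : Finite ↥(threeJ3 F ω) := by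
    haveI : Finite (GL F9 F) := inferInstance
    infer_instance
  have hinj : Function.Injective (triple hG) := by
    rintro ⟨⟨c, hc⟩, i, h⟩ ⟨⟨c', hc'⟩, i', h'⟩ e
    have e' : c * (qEl hG i * hEl hG h) = c' * (qEl hG i' * hEl hG h') := congrArg Subtype.val e
    have key : c'⁻¹ * c * qEl hG (qm (qi i') i) = hEl hG (hm h' (hi' h)) := by
      rw [← qEl_mul hG, ← hEl_mul hG, qEl_inv hG, hEl_inv hG, eq_mul_inv_iff_mul_eq]
      have comm : c'⁻¹ * c * (qEl hG i')⁻¹ = (qEl hG i')⁻¹ * (c'⁻¹ * c) :=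
        (Subgroup.mem_center_iff.1 (mul_mem (inv_mem hc') hc) _).symm
      rw [← mul_assoc (c'⁻¹ * c), comm, mul_assoc, mul_assoc, mul_assoc c'⁻¹, e',
        inv_mul_cancel_left, inv_mul_cancel_left]
    obtain ⟨hi, hh⟩ := meet_trivial hG (mul_mem (inv_mem hc') hc) _ _ key
    obtain rfl := qm_cancel i i' hi
    obtain rfl : h = h' := by
      have h1 : hEl hG h' * (hEl hG h)⁻¹ = 1 := by
        rw [← hEl_inv hG, hEl_mul hG, hh, hEl_zero hG]
      have h2 : hEl hG h = hEl hG h' := (mul_inv_eq_one.1 h1).symm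
      refine hm_cancel h h' (Fin.ext ?_)
      have e2 : hEl hG (hm (hi' h') h) = hEl hG (hm (hi' h') h') := by
        rw [← hEl_mul hG, ← hEl_mul hG, h2]
      have e3 : hm (hi' h') h' = 0 := Fin.ext (hs_ok.2 h').2.2.2.1
      rw [e3, hEl_zero hG] at e2
      have := meet_trivial hG (one_mem _) 0 (hm (hi' h') h) (by rw [qEl_zero hG, e2, one_mul])
      exact congrArg Fin.val this.2
    obtain rfl : c = c' := mul_right_cancel e'
    rfl
  refine hinj.bijective_of_nat_card_le ?_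
  rw [Nat.card_prod, Nat.card_prod, card_center hG, Nat.card_eq_fintype_card (α := Fin 32),
    Nat.card_eq_fintype_card (α := Fin 60), Fintype.card_fin, Fintype.card_fin]
  exact card_zCent_le hG

/-- An element of the normal subgroup in `J₃`. -/
noncomputable def qJ (i : Fin 32) : ↥(Cen F ω hG) := toCen hG ⟨qEl hG i, qEl_mem hG i⟩

/-- An element of the complement in `J₃`. -/
noncomputable def hJ (i : Fin 60) : ↥(Cen F ω hG) := toCen hG ⟨hEl hG i, hEl_mem hG i⟩

theorem qJ_mul (i j : Fin 32) : qJ hG i * qJ hG j = qJ hG (qm i j) := by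
  rw [qJ, qJ, ← map_mul]; exact congrArg (toCen hG) (Subtype.ext (qEl_mul hG i j))

theorem hJ_mul (i j : Fin 60) : hJ hG i * hJ hG j = hJ hG (hm i j) := by
  rw [hJ, hJ, ← map_mul]; exact congrArg (toCen hG) (Subtype.ext (hEl_mul hG i j))

theorem qJ_zero : qJ hG 0 = 1 := by
  rw [qJ, ← map_one (toCen hG)]; exact congrArg (toCen hG) (Subtype.ext (qEl_zero hG))

theorem hJ_zero : hJ hG 0 = 1 := by
  rw [hJ, ← map_one (toCen hG)]; exact congrArg (toCen hG) (Subtype.ext (hEl_zero hG))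

theorem hJ_conj (h : Fin 60) (i : Fin 32) : hJ hG h * qJ hG i = qJ hG (cm h i) * hJ hG h := by
  rw [hJ, qJ, qJ, ← map_mul, ← map_mul]
  exact congrArg (toCen hG) (Subtype.ext (hEl_conj hG h i))

theorem qJ_eq_hJ {i : Fin 32} {h : Fin 60} (e : qJ hG i = hJ hG h) : i = 0 ∧ h = 0 := by
  obtain ⟨c, hc, e'⟩ := (toCen_eq_iff hG _ _).1 e
  exact meet_trivial hG hc i h e'.symm

theorem qJ_inj : Function.Injective (qJ hG) := fun i j e => by
  refine qm_cancel i j (qJ_eq_hJ hG (i := qm (qi j) i) (h := 0) ?_).1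
  rw [← qJ_mul, e, qJ_mul, show qm (qi j) j = 0 from Fin.ext (qs_ok.2.2.2 j).2.2.2.1, qJ_zero,
    hJ_zero]

theorem hJ_inj : Function.Injective (hJ hG) := fun i j e => by
  refine hm_cancel i j (qJ_eq_hJ hG (i := 0) (h := hm (hi' j) i) ?_).2
  rw [← hJ_mul, e, hJ_mul, show hm (hi' j) j = 0 from Fin.ext (hs_ok.2 j).2.2.2.1, qJ_zero,
    hJ_zero]

variable (F ω) in
omit hG in
/-- The normal subgroup of order 32. -/
def Qs (hG : Good F ω) : Subgroup ↥(Cen F ω hG) where
  carrier := Set.range (qJ hG)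
  one_mem' := ⟨0, qJ_zero hG⟩
  mul_mem' := by rintro _ _ ⟨i, rfl⟩ ⟨j, rfl⟩; exact ⟨_, (qJ_mul hG i j).symm⟩
  inv_mem' := by
    rintro _ ⟨i, rfl⟩
    refine ⟨qi i, eq_inv_of_mul_eq_one_left ?_⟩
    rw [qJ_mul, show qm (qi i) i = 0 from Fin.ext (qs_ok.2.2.2 i).2.2.2.1, qJ_zero]

variable (F ω) in
omit hG in
/-- The complement. -/
def Hs (hG : Good F ω) : Subgroup ↥(Cen F ω hG) where
  carrier := Set.range (hJ hG)
  one_mem' := ⟨0, hJ_zero hG⟩
  mul_mem' := by rintro _ _ ⟨i, rfl⟩ ⟨j, rfl⟩; exact ⟨_, (hJ_mul hG i j).symm⟩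
  inv_mem' := by
    rintro _ ⟨i, rfl⟩
    refine ⟨hi' i, eq_inv_of_mul_eq_one_left ?_⟩
    rw [hJ_mul, show hm (hi' i) i = 0 from Fin.ext (hs_ok.2 i).2.2.2.1, hJ_zero]

theorem exists_qh (x : ↥(Cen F ω hG)) : ∃ i h, x = qJ hG i * hJ hG h := by
  obtain ⟨g, rfl⟩ := toCen_surj hG x
  obtain ⟨⟨⟨c, hc⟩, i, h⟩, rfl⟩ := (triple_bij hG).2 g
  refine ⟨i, h, ?_⟩
  rw [qJ, hJ, ← map_mul]
  refine ((toCen_eq_iff hG _ _).2 ⟨c, hc, rfl⟩).symm

theorem Qs_normal : (Qs F ω hG).Normal := by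
  refine ⟨?_⟩
  rintro _ ⟨j, rfl⟩ x
  obtain ⟨i, h, rfl⟩ := exists_qh hG x
  rw [show qJ hG i * hJ hG h * qJ hG j * (qJ hG i * hJ hG h)⁻¹ =
    qJ hG i * (hJ hG h * qJ hG j * (hJ hG h)⁻¹) * (qJ hG i)⁻¹ by group, hJ_conj, mul_inv_cancel_right]
  exact mul_mem (mul_mem ⟨i, rfl⟩ ⟨_, rfl⟩) (inv_mem ⟨i, rfl⟩)

theorem compl_QH : (Qs F ω hG).IsComplement' (Hs F ω hG) := by
  refine Subgroup.isComplement'_of_disjoint_and_mul_eq_univ (Subgroup.disjoint_def.2 ?_) ?_
  · rintro _ ⟨i, rfl⟩ ⟨h, e⟩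
    rw [(qJ_eq_hJ hG e.symm).1, qJ_zero]
  · refine Set.eq_univ_of_forall fun x => ?_
    obtain ⟨i, h, rfl⟩ := exists_qh hG x
    exact Set.mul_mem_mul ⟨i, rfl⟩ ⟨h, rfl⟩

/-- The complement is the alternating group of degree five. -/
theorem Hs_iso : Nonempty (↥(Hs F ω hG) ≃* ↥(alternatingGroup (Fin 5))) := by
  let f : Fin 60 → ↥(Hs F ω hG) := fun i => ⟨hJ hG i, i, rfl⟩
  have hf : Function.Bijective f := ⟨fun i j e => hJ_inj hG (congrArg Subtype.val e), by
    rintro ⟨_, i, rfl⟩; exact ⟨i, rfl⟩⟩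
  let e := Equiv.ofBijective f hf
  let ψ : ↥(Hs F ω hG) →* ↥(alternatingGroup (Fin 5)) := MonoidHom.mk'
    (fun x => ⟨permOf (e.symm x), sign_permOf _⟩) (fun x y => by
      obtain ⟨i, rfl⟩ := e.surjective x
      obtain ⟨j, rfl⟩ := e.surjective y
      have h : e i * e j = e (hm i j) := Subtype.ext (hJ_mul hG i j)
      refine Subtype.ext ?_
      show permOf (e.symm (e i * e j)) = permOf (e.symm (e i)) * permOf (e.symm (e j))
      rw [h, e.symm_apply_apply, e.symm_apply_apply, e.symm_apply_apply, permOf_mul])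
  have hinj : Function.Injective ψ := by
    intro x y hxy
    have h : permOf (e.symm x) = permOf (e.symm y) := congrArg Subtype.val hxy
    exact e.symm.injective (pim_inj _ _ fun k => congrArg (fun σ : Equiv.Perm (Fin 5) => σ k) h)
  refine ⟨MulEquiv.ofBijective ψ (hinj.bijective_of_nat_card_le ?_)⟩
  rw [← Nat.card_eq_of_bijective f hf, card_A5, Nat.card_eq_fintype_card, Fintype.card_fin]

/-- An element of the normal subgroup, as such. -/
noncomputable def qQ (i : Fin 32) : ↥(Qs F ω hG) := ⟨qJ hG i, i, rfl⟩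

theorem qQ_bij : Function.Bijective (qQ hG) :=
  ⟨fun i j e => qJ_inj hG (congrArg Subtype.val e), by rintro ⟨_, i, rfl⟩; exact ⟨i, rfl⟩⟩

theorem qQ_mul (i j : Fin 32) : qQ hG i * qQ hG j = qQ hG (qm i j) := Subtype.ext (qJ_mul hG i j)

theorem qQ_zero : qQ hG 0 = 1 := Subtype.ext (qJ_zero hG)

theorem qQ_zI_mem : qQ hG zI ∈ Subgroup.center ↥(Qs F ω hG) := by
  refine Subgroup.mem_center_iff.2 fun x => ?_
  obtain ⟨i, rfl⟩ := (qQ_bij hG).2 x
  refine Subtype.ext (show qJ hG i * qJ hG zI = qJ hG zI * qJ hG i from ?_)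
  rw [qJ, qJ, ← map_mul, ← map_mul]
  refine congrArg (toCen hG) (Subtype.ext ?_)
  show qEl hG i * qEl hG zI = qEl hG zI * qEl hG i
  rw [qEl_zI hG]
  exact Subgroup.mem_centralizer_singleton_iff.1 (qEl_mem hG i)

theorem card_Qs : Nat.card ↥(Qs F ω hG) = 32 := by
  rw [← Nat.card_eq_of_bijective _ (qQ_bij hG), Nat.card_eq_fintype_card, Fintype.card_fin]

theorem Qs_extraspecial : Cfsg.IsExtraspecial 2 (Qs F ω hG) := by
  haveI : Fact (Nat.Prime 2) := ⟨Nat.prime_two⟩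
  haveI : Finite ↥(Qs F ω hG) := Nat.finite_of_card_ne_zero (by rw [card_Qs hG]; norm_num)
  have hz : ∀ i, qQ hG i ∈ Subgroup.center ↥(Qs F ω hG) ↔ i = 0 ∨ i = zI := by
    intro i
    constructor
    · intro hi
      by_contra h
      push Not at h
      obtain ⟨j, hj⟩ := qNon_spec i h.1 h.2
      have := Subgroup.mem_center_iff.1 hi (qQ hG j)
      rw [qQ_mul, qQ_mul] at this
      exact hj ((qQ_bij hG).1 this).symm
    · rintro (rfl | rfl)
      · rw [qQ_zero]; exact one_mem _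
      · exact qQ_zI_mem hG
  refine Cfsg.Agent.H24.isExtraspecial_of (IsPGroup.of_card (n := 5) (card_Qs hG)) ?_ ?_ ?_ ?_
  · have : ((Subgroup.center ↥(Qs F ω hG)) : Set ↥(Qs F ω hG)) = {qQ hG 0, qQ hG zI} := by
      ext x
      obtain ⟨i, rfl⟩ := (qQ_bij hG).2 x
      simp only [SetLike.mem_coe, hz, Set.mem_insert_iff, Set.mem_singleton_iff, (qQ_bij hG).1.eq_iff]
    show Nat.card ((Subgroup.center ↥(Qs F ω hG)) : Set ↥(Qs F ω hG)) = 2
    rw [Nat.card_coe_set_eq, this, Set.ncard_pair (fun e => zI_ne ((qQ_bij hG).1 e).symm)]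
  · intro htop
    obtain ⟨i, h0, h1⟩ : ∃ i : Fin 32, i ≠ 0 ∧ i ≠ zI := by decide +kernel
    rcases (hz i).1 (htop ▸ Subgroup.mem_top _) with h | h
    exacts [h0 h, h1 h]
  · intro a b
    obtain ⟨i, rfl⟩ := (qQ_bij hG).2 a
    obtain ⟨j, rfl⟩ := (qQ_bij hG).2 b
    rcases (qTab_spec i j).1 with e | e
    · rw [commutatorElement_eq_one_iff_mul_comm.2 (by rw [qQ_mul, qQ_mul, e])]
      exact one_mem _
    · have h : qQ hG i * qQ hG j = qQ hG zI * (qQ hG j * qQ hG i) := by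
        rw [qQ_mul, qQ_mul, qQ_mul, e]
      rw [show ⁅qQ hG i, qQ hG j⁆ = qQ hG zI by rw [commutatorElement_def, h]; group]
      exact qQ_zI_mem hG
  · intro x
    obtain ⟨i, rfl⟩ := (qQ_bij hG).2 x
    rw [pow_two, qQ_mul, hz]
    exact (qTab_spec i i).2.1

theorem Qs_no_eight (E : Subgroup ↥(Qs F ω hG)) (hE : Cfsg.IsElementaryAbelian 2 E) :
    Nat.card E ≤ 2 ^ 2 := by
  classical
  have hsq : ∀ i, qQ hG i ∈ E → qm i i = 0 := fun i hi => (qQ_bij hG).1 (by
    rw [← qQ_mul, qQ_zero, ← pow_two, hE.2 _ hi])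
  have hcm : ∀ i j, qQ hG i ∈ E → qQ hG j ∈ E → qm i j = qm j i := fun i j hi hj =>
    (qQ_bij hG).1 (by
      rw [← qQ_mul, ← qQ_mul]
      exact congrArg Subtype.val (hE.1.is_comm.comm (⟨_, hi⟩ : E) ⟨_, hj⟩))
  have hsub : ∃ a, (E : Set ↥(Qs F ω hG)) ⊆ {qQ hG 0, qQ hG zI, qQ hG a, qQ hG (qm a zI)} := by
    by_cases h : ∃ a, qQ hG a ∈ E ∧ a ≠ 0 ∧ a ≠ zI
    · obtain ⟨a, ha, a0, a1⟩ := h
      refine ⟨a, fun x hx => ?_⟩
      obtain ⟨j, rfl⟩ := (qQ_bij hG).2 x
      simp only [Set.mem_insert_iff, Set.mem_singleton_iff, (qQ_bij hG).1.eq_iff]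
      by_cases j0 : j = 0
      · exact Or.inl j0
      by_cases j1 : j = zI
      · exact Or.inr (Or.inl j1)
      rcases (qTab_spec a j).2.2 (hsq a ha) a0 a1 (hsq j hx) j0 j1 (hcm a j ha hx) with e | e
      · exact Or.inr (Or.inr (Or.inl e))
      · exact Or.inr (Or.inr (Or.inr e))
    · push Not at h
      refine ⟨0, fun x hx => ?_⟩
      obtain ⟨j, rfl⟩ := (qQ_bij hG).2 x
      simp only [Set.mem_insert_iff, Set.mem_singleton_iff, (qQ_bij hG).1.eq_iff]
      by_cases j0 : j = 0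
      · exact Or.inl j0
      · exact Or.inr (Or.inl (h j hx j0))
  obtain ⟨a, ha⟩ := hsub
  show Nat.card (E : Set ↥(Qs F ω hG)) ≤ 4
  rw [Nat.card_coe_set_eq]
  refine le_trans (Set.ncard_le_ncard ha (Set.toFinite _)) ?_
  refine le_trans (Set.ncard_insert_le _ _) (Nat.succ_le_succ ?_)
  refine le_trans (Set.ncard_insert_le _ _) (Nat.succ_le_succ ?_)
  refine le_trans (Set.ncard_insert_le _ _) (Nat.succ_le_succ ?_)
  rw [Set.ncard_singleton]

end

end Cfsg.Agent.H15.J3
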