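import Cfsg.Agent.H15.J3.InvData
import Cfsg.Agent.H15.J3.Orbit

/-!
Kernel checks for the involutions of `3·J₃` and the centraliser of one of them.
-/

set_option autoImplicit false

namespace Cfsg.Agent.H15.J3

open Cfsg.Agent.H16

/-- An element of the vector stabiliser, from the sorted keys. -/
noncomputable def sCode (i : ℕ) : List ℕ :=
  forceNat (PArr.get 162 InvData.sKeys i) fun k =>
    [bitField k 0 18, bitField k 18 18, bitField k 36 18, bitField k 54 18, bitField k 72 18,
      bitField k 90 18, bitField k 108 18, bitField k 126 18, bitField k 144 18]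

/-- Generators of the vector stabiliser. -/
def sGenC (a : ℕ) : List ℕ := InvData.sGen.getD a []

/-- Tree, order and involution check at one element. -/
noncomputable def sCheck (i : ℕ) : Bool :=
  forceNat (PArr.get 23 InvData.sInfo i) fun x =>
    Nat.beq (appF (sCode i) 72) 72 &&
    (Nat.beq i 0 || Nat.blt (key (sCode (Nat.pred i))) (key (sCode i))) &&
    (Bool.rec
      (Nat.blt (bitField x 0 11) 1152 &&
        Nat.blt (bitField (PArr.get 23 InvData.sInfo (bitField x 0 11)) 12 5) (bitField x 12 5) &&
        Nat.blt (bitField x 11 1) 2 &&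
        natListEq (sCode i) (mmF (sGenC (bitField x 11 1)) (sCode (bitField x 0 11))))
      (natListEq (sCode i) idM)
      (Nat.beq (bitField x 12 5) 0)) &&
    (!(natListEq (mmF (sCode i) (sCode i)) idM) || natListEq (sCode i) idM ||
      (Nat.blt (bitField x 17 6) 51 && Nat.beq (InvData.invI.getD (bitField x 17 6) 0) i))

theorem sCheck_a : allFrom sCheck 384 0 = true := by decide +kernel

theorem sCheck_b : allFrom sCheck 384 384 = true := by decide +kernel

theorem sCheck_c : allFrom sCheck 384 768 = true := by decide +kernel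

theorem sCheck_all : ∀ i, i < 1152 → sCheck i = true :=
  allFrom_extend (allFrom_extend (allFrom_extend allFrom_nil sCheck_a) sCheck_b) sCheck_c

theorem sGenW_ok : ∀ a : Fin 2, small 7 (InvData.sGenW.getD a []) = true ∧
    ev Data.gen7 (InvData.sGenW.getD a []) = sGenC a := by decide +kernel

theorem sGen_fix : ∀ a : Fin 2, app (sGenC a) 72 = 72 := by decide +kernel

theorem invI_nodup : InvData.invI.length = 51 ∧ InvData.invI.Nodup := by decide +kernel

/-- The certificate for one involution. -/
noncomputable def invCheck (n : ℕ) : Bool :=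
  Nat.blt (InvData.invI.getD n 0) 1152 &&
    small 7 (InvData.invW.getD n []) &&
    natListEq (mm (ev Data.gen7 (InvData.invW.getD n [])) (sCode (InvData.invI.getD n 0)))
      (mm InvData.zc (ev Data.gen7 (InvData.invW.getD n [])))

theorem invCheck_all : ∀ n : Fin 51, invCheck n = true := by decide +kernel

theorem zc_ok : sCode 0 = InvData.zc ∧ InvData.zc ≠ idM ∧ mm InvData.zc InvData.zc = idM := by
  decide +kernel

/-- Coordinates among the first five and back. -/
def spread (i : ℕ) : ℕ := (i % 32) ||| ((i / 32) <<< 9)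

theorem fixed_ok :
    List.zipWith (fun a b => a ^^^ b) (mm InvData.fixB InvData.fixP)
        (mm InvData.fixK (List.zipWith (fun a b => a ^^^ b) InvData.zc idM)) = idM ∧
      InvData.fixB.drop 5 = [0, 0, 0, 0] ∧ InvData.fixB.length = 9 ∧
      ∀ c ∈ InvData.fixB, c < 2 ^ 18 := by decide +kernel

/-- An isotropic nonzero vector in the fixed space. -/
noncomputable def fixTest' (i : ℕ) : Bool :=
  forceNat (appF InvData.fixB (spread i)) fun v => !(Nat.beq v 0) && !(oddWt v)

theorem fixTest'_count : countFrom fixTest' 1024 0 = 255 := by decide +kernel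

/-- A nonzero isotropic vector. -/
noncomputable def isIso (v : ℕ) : Bool := !(Nat.beq v 0) && !(oddWt v)

/-- Counting in blocks. -/
noncomputable def isoBlocks (n : ℕ) : ℕ → ℕ :=
  Nat.rec (motive := fun _ => ℕ → ℕ) (fun _ => 0)
    (fun _ ih b => forceNat (countFrom isIso 1024 (Nat.mul b 1024)) fun c =>
      Nat.add c (ih (Nat.succ b))) n

theorem iso_count : isoBlocks 256 0 = 130815 := by decide +kernel

/-- An element of the normal subgroup. -/
def qc (i : ℕ) : List ℕ := InvData.qs.getD i []

/-- An element of the complement. -/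
def hc (i : ℕ) : List ℕ := InvData.hs.getD i []

/-- The three scalars. -/
def sc3 (c : ℕ) : List ℕ := [idM, g7 3, mm (g7 3) (g7 3)].getD c []

/-- Product in the normal subgroup. -/
noncomputable def qMul (i j : ℕ) : ℕ := PArr.get 6 InvData.qMul (i * 32 + j)

/-- Product in the complement. -/
noncomputable def hMul (i j : ℕ) : ℕ := PArr.get 6 InvData.hMul (i * 60 + j)

/-- The action of the complement on the normal subgroup. -/
noncomputable def conjQ (h i : ℕ) : ℕ := PArr.get 6 InvData.conjT (h * 32 + i)

theorem qs_ok : qc 0 = idM ∧ qc InvData.zQ = InvData.zc ∧ InvData.zQ < 32 ∧ ∀ i : Fin 32,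
    (qc i).length = 9 ∧ (∀ c ∈ qc i, c < 2 ^ 18) ∧
    InvData.qInv.getD i 0 < 32 ∧ qMul (InvData.qInv.getD i 0) i = 0 ∧
    mm (qc i) InvData.zc = mm InvData.zc (qc i) := by decide +kernel

theorem hs_ok : hc 0 = idM ∧ ∀ i : Fin 60,
    (hc i).length = 9 ∧ (∀ c ∈ hc i, c < 2 ^ 18) ∧
    InvData.hInv.getD i 0 < 60 ∧ hMul (InvData.hInv.getD i 0) i = 0 ∧
    mm (hc i) InvData.zc = mm InvData.zc (hc i) := by decide +kernel

theorem qPar_ok : ∀ i : Fin 32, i.1 ≠ 0 → InvData.qPar.getD i 0 / 8 < i ∧
    InvData.qPar.getD i 0 % 8 < InvData.qGenW.length ∧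
    small 7 (InvData.qGenW.getD (InvData.qPar.getD i 0 % 8) []) = true ∧
    qc i = mm (ev Data.gen7 (InvData.qGenW.getD (InvData.qPar.getD i 0 % 8) []))
      (qc (InvData.qPar.getD i 0 / 8)) := by decide +kernel

theorem hPar_ok : ∀ i : Fin 60, i.1 ≠ 0 → InvData.hPar.getD i 0 / 8 < i ∧
    InvData.hPar.getD i 0 % 8 < InvData.hGenW.length ∧
    small 7 (InvData.hGenW.getD (InvData.hPar.getD i 0 % 8) []) = true ∧
    hc i = mm (ev Data.gen7 (InvData.hGenW.getD (InvData.hPar.getD i 0 % 8) []))
      (hc (InvData.hPar.getD i 0 / 8)) := by decide +kernel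

/-- The product table of the normal subgroup. -/
noncomputable def qMulCheck (x : ℕ) : Bool :=
  forceNat (qMul (x / 32) (x % 32)) fun k =>
    Nat.blt k 32 && natListEq (mmF (qc (x / 32)) (qc (x % 32))) (qc k)

theorem qMul_ok : allFrom qMulCheck 1024 0 = true := by decide +kernel

/-- The product table of the complement. -/
noncomputable def hMulCheck (x : ℕ) : Bool :=
  forceNat (hMul (x / 60) (x % 60)) fun k =>
    Nat.blt k 60 && natListEq (mmF (hc (x / 60)) (hc (x % 60))) (hc k)

theorem hMul_ok : allFrom hMulCheck 3600 0 = true := by decide +kernel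

/-- The action table. -/
noncomputable def conjCheck (x : ℕ) : Bool :=
  forceNat (conjQ (x / 32) (x % 32)) fun k =>
    Nat.blt k 32 && natListEq (mmF (hc (x / 32)) (qc (x % 32))) (mmF (qc k) (hc (x / 32)))

theorem conj_ok : allFrom conjCheck 1920 0 = true := by decide +kernel

/-- Scalar multiples of the normal subgroup meet the complement trivially. -/
noncomputable def sepCheck (x : ℕ) : Bool :=
  !(natListEq (mmF (sc3 (x / 1920)) (qc (x % 32))) (hc (x % 1920 / 32))) ||
    (Nat.beq (x % 32) 0 && Nat.beq (x % 1920 / 32) 0)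

theorem sep_ok : allFrom sepCheck 5760 0 = true := by decide +kernel

/-- Commutators and squares in the normal subgroup. -/
noncomputable def qTab (x : ℕ) : Bool :=
  forceNat (x / 32) fun i => forceNat (x % 32) fun j => forceNat (qMul i j) fun a =>
    forceNat (qMul j i) fun b =>
      (Nat.beq a b || Nat.beq a (qMul InvData.zQ b)) &&
      (!(Nat.beq i j) || Nat.beq a 0 || Nat.beq a InvData.zQ) &&
      (!(Nat.beq (qMul i i) 0) || Nat.beq i 0 || Nat.beq i InvData.zQ ||
        !(Nat.beq (qMul j j) 0) || Nat.beq j 0 || Nat.beq j InvData.zQ ||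
        !(Nat.beq a b) || Nat.beq j i || Nat.beq j (qMul i InvData.zQ))

theorem qTab_ok : allFrom qTab 1024 0 = true := by decide +kernel

theorem qNon_ok : ∀ i : Fin 32, i.1 ≠ 0 → i.1 ≠ InvData.zQ → InvData.qNon.getD i 0 < 32 ∧
    qMul i (InvData.qNon.getD i 0) ≠ qMul (InvData.qNon.getD i 0) i := by decide +kernel

/-- The image of a point under an element of the complement. -/
def pim (g : ℕ) (k : Fin 5) : Fin 5 := Fin.ofNat 5 ((InvData.perm.getD g []).getD k 0)

theorem pim_inj : ∀ g : Fin 60, ∀ h : Fin 60, (∀ k : Fin 5, pim g k = pim h k) → g = h := by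
  decide +kernel

theorem pim_one : ∀ k : Fin 5, pim 0 k = k := by decide +kernel

/-- The action is multiplicative. -/
noncomputable def pimCheck (x : ℕ) : Bool :=
  decide (∀ k : Fin 5, pim (x / 60) (pim (x % 60) k) = pim (hMul (x / 60) (x % 60)) k)

theorem pim_ok : allFrom pimCheck 3600 0 = true := by decide +kernel

end Cfsg.Agent.H15.J3
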