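import Cfsg.Agent.H15.J3.Orbit

/-!
The orbits of `3·J₃` on one-dimensional spaces: the base line and the isotropic lines.
-/

set_option autoImplicit false

namespace Cfsg.Agent.H15.J3

open Cfsg.Spor Matrix Cfsg.Agent.H16

/-- The nonzero coordinates, as a fold. -/
def wtBit (v k : ℕ) : Bool := v.testBit k || v.testBit (9 + k)

/-- Parity of the nonzero coordinates. -/
def parity9 (v : ℕ) : Bool :=
  wtBit v 0 ^^ wtBit v 1 ^^ wtBit v 2 ^^ wtBit v 3 ^^ wtBit v 4 ^^ wtBit v 5 ^^ wtBit v 6 ^^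
    wtBit v 7 ^^ wtBit v 8

theorem oddWt_eq (v : ℕ) : oddWt v = parity9 v := by
  rw [oddWt, forceNat_eq]
  have h1 : ∀ x : ℕ, Nat.beq (Nat.land x 1) 1 = x.testBit 0 := by
    intro x
    show Nat.beq (x &&& 1) 1 = _
    rw [Nat.testBit_zero, Nat.and_one_is_mod]
    rcases Nat.mod_two_eq_zero_or_one x with h | h <;> rw [h] <;> rfl
  rw [h1]
  simp only [parity9, wtBit]
  show Nat.testBit (((((((v &&& 511) ||| v >>> 9)) ^^^ ((v &&& 511) ||| v >>> 9) >>> 1) ^^^
    (((v &&& 511) ||| v >>> 9) >>> 2 ^^^ ((v &&& 511) ||| v >>> 9) >>> 3)) ^^^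
    ((((v &&& 511) ||| v >>> 9) >>> 4 ^^^ ((v &&& 511) ||| v >>> 9) >>> 5) ^^^
    (((v &&& 511) ||| v >>> 9) >>> 6 ^^^ ((v &&& 511) ||| v >>> 9) >>> 7))) ^^^
    ((v &&& 511) ||| v >>> 9) >>> 8) 0 = _
  have h511 : ∀ i, Nat.testBit 511 i = decide (i < 9) := fun i =>
    Nat.testBit_two_pow_sub_one 9 i
  simp only [Nat.testBit_xor, Nat.testBit_shiftRight, Nat.testBit_or, Nat.testBit_and, h511]
  simp [Bool.xor_assoc]

section

variable {F : Type*} [Field F] [Fintype F] {ω : F} (hG : Good F ω)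
include hG

theorem cf_cube (a b : Bool) : cf ω a b ^ 3 = if a || b then 1 else 0 := by
  have h := w_cube hG
  cases a <;> cases b <;> simp [cf, h]
  have := two_zero hG
  have := hG.eq
  grind

theorem ite_xor (p q : Bool) :
    (if p then (1 : F) else 0) + (if q then 1 else 0) = if p ^^ q then 1 else 0 := by
  cases p <;> cases q <;> simp [add_self hG]

theorem sum_cube (v : ℕ) : ∑ z, val ω v z ^ 3 = if parity9 v then 1 else 0 := by
  rw [sum9]
  simp only [Finset.sum_range_succ, Finset.sum_range_zero, val]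
  simp only [idx_pt (show 0 < 9 by norm_num), idx_pt (show 1 < 9 by norm_num),
    idx_pt (show 2 < 9 by norm_num), idx_pt (show 3 < 9 by norm_num),
    idx_pt (show 4 < 9 by norm_num), idx_pt (show 5 < 9 by norm_num),
    idx_pt (show 6 < 9 by norm_num), idx_pt (show 7 < 9 by norm_num),
    idx_pt (show 8 < 9 by norm_num), cf_cube hG, zero_add, parity9, wtBit]
  simp only [ite_xor hG]
  congr 1

/-- An isotropic vector can be moved to a multiple of the isotropic base point. -/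
theorem isotropic_reduce {x : F9 → F} (hx : x ≠ 0) (h : ∑ z, x z ^ 3 = 0) :
    ∃ g ∈ threeJ3 F ω, ∃ c : F, c ≠ 0 ∧ (g : Matrix F9 F9 F) *ᵥ x = c • val ω 72 := by
  obtain ⟨v, hv, rfl⟩ := val_surj hG x
  obtain ⟨c, hc, ec⟩ := exists_smul_norm hG v
  have hn := norm_lt hG hv
  have hn0 : norm v ≠ 0 := fun e => by
    rw [e, val_zero] at ec
    exact hx ((smul_eq_zero.1 ec.symm).resolve_left hc)
  obtain ⟨-, -, h3, g, hg, d, hd, e⟩ := reduce hG _ _ le_rfl hn hn0 (norm_idem hG hv)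
  have hpar : oddWt (norm v) = false := by
    have hs : ∑ z, val ω (norm v) z ^ 3 = 0 := by
      rw [ec]
      simp only [Pi.smul_apply, smul_eq_mul, mul_pow, ← Finset.mul_sum, h, mul_zero]
    rw [sum_cube hG] at hs
    rw [oddWt_eq]
    cases hp : parity9 (norm v)
    · rfl
    · rw [hp] at hs; simp at hs
  rw [h3.2 hpar, show basePt 3 = 72 from rfl, ec, mulVec_smul] at e
  refine ⟨g, hg, c⁻¹ * d, mul_ne_zero (inv_ne_zero hc) hd, ?_⟩
  rw [mul_smul, ← e, smul_smul, inv_mul_cancel₀ hc, one_smul]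

/-- The lines in the orbit of the base line. -/
theorem ncard_lines :
    {L : Submodule F (F9 → F) | ∃ g ∈ threeJ3 F ω,
      L = F ∙ ((g : Matrix F9 F9 F) *ᵥ (Pi.single (0 : F9) (1 : F) : F9 → F))}.ncard = 23256 := by
  rw [← ncard_oneSet]
  refine (Set.ncard_congr (fun v _ => F ∙ val ω v) ?_ ?_ ?_).symm
  · rintro v ⟨hv, h0, hn, hl⟩
    obtain ⟨g, hg, c, hc, e⟩ := (lab_eq_one_iff hG hv h0 hn).1 hl
    refine ⟨g, hg, ?_⟩
    rw [← val_one hG, e]
    exact Submodule.span_singleton_smul_eq (isUnit_iff_ne_zero.2 hc) _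
  · rintro v w ⟨hv, h0, hn, -⟩ ⟨hw, hw0, hwn, -⟩ h
    have hmem : val ω v ∈ F ∙ val ω w := h ▸ Submodule.mem_span_singleton_self _
    obtain ⟨c, hc⟩ := Submodule.mem_span_singleton.1 hmem
    have hc0 : c ≠ 0 := fun e => val_ne_zero hG hv h0 (by rw [← hc, e, zero_smul])
    have := norm_eq_of_smul hG hv hw hc0 hc.symm
    rwa [hn, hwn] at this
  · rintro L ⟨g, hg, rfl⟩
    obtain ⟨v, hv, ev⟩ := val_surj hG ((g : Matrix F9 F9 F) *ᵥ val ω 1)
    have hv0 : v ≠ 0 := fun e => by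
      rw [e, val_zero] at ev
      exact val_ne_zero hG (by norm_num : 1 < 2 ^ 18) one_ne_zero
        ((mulVec_injective_iff_isUnit.2 g.isUnit) (by rw [← ev, mulVec_zero]))
    obtain ⟨c, hc, ec⟩ := exists_smul_norm hG v
    have hn0 : norm v ≠ 0 := fun e => by
      rw [e, val_zero] at ec
      exact val_ne_zero hG hv hv0 ((smul_eq_zero.1 ec.symm).resolve_left hc)
    refine ⟨norm v, ⟨norm_lt hG hv, hn0, norm_idem hG hv, (lab_eq_one_iff hG (norm_lt hG hv) hn0
      (norm_idem hG hv)).2 ⟨g, hg, c, hc, by rw [ec, ev]⟩⟩, ?_⟩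
    show (F ∙ val ω (norm v)) = _
    rw [← val_one hG, ← ev, ec]
    exact Submodule.span_singleton_smul_eq (isUnit_iff_ne_zero.2 hc) _

end

end Cfsg.Agent.H15.J3
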