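import Cfsg.Agent.H15.J3.InvChecks
import Cfsg.Agent.H15.J3.Lines
import Cfsg.Agent.H15.J3.Simple

/-!
The stabiliser of an isotropic vector and the involutions of `3·J₃`.
-/

set_option autoImplicit false

namespace Cfsg.Agent.H15.J3

open Cfsg.Spor Matrix Cfsg.Agent.H16

theorem code_eq {F : Type*} [Field F] [Fintype F] {ω : F} (hG : Good F ω) {M N : List ℕ}
    (hM : M.length = 9) (hN : N.length = 9) (bM : ∀ c ∈ M, c < 2 ^ 18) (bN : ∀ c ∈ N, c < 2 ^ 18)
    (h : toMat ω M = toMat ω N) : M = N := by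
  refine List.ext_getElem (by omega) fun i h1 h2 => ?_
  refine val_inj hG (bM _ (List.getElem_mem h1)) (bN _ (List.getElem_mem h2)) (funext fun w => ?_)
  have := congrFun (congrFun h w) (pt i)
  rwa [toMat_apply, toMat_apply, idx_pt (by omega), List.getD_eq_getElem _ _ h1,
    List.getD_eq_getElem _ _ h2] at this

theorem sCode_spec (i : ℕ) : (sCode i).length = 9 ∧ ∀ c ∈ sCode i, c < 2 ^ 18 := by
  rw [sCode, forceNat_eq]
  refine ⟨rfl, ?_⟩
  have : ∀ k off : ℕ, bitField k off 18 < 2 ^ 18 := by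
    intro k off
    exact lt_of_le_of_lt Nat.and_le_right (by norm_num)
  simp only [List.mem_cons, List.not_mem_nil, or_false]
  rintro c (rfl | rfl | rfl | rfl | rfl | rfl | rfl | rfl | rfl) <;> apply this

theorem sCode_key_lt {i j : ℕ} (hij : i < j) (hj : j < 1152) :
    key (sCode i) < key (sCode j) := by
  induction j with
  | zero => omega
  | succ j ih =>
    have h := sCheck_all (j + 1) hj
    simp only [sCheck, forceNat_eq, Bool.and_eq_true, Bool.or_eq_true, Nat.blt_eq] at h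
    have h' : key (sCode j) < key (sCode (j + 1)) := by
      rcases h.1.1.2 with e | e
      · exact absurd (Nat.eq_of_beq_eq_true e) (by omega)
      · exact e
    rcases Nat.lt_or_ge i j with c | c
    · exact lt_trans (ih c (by omega)) h'
    · obtain rfl : i = j := by omega
      exact h'

theorem sGenC_length : ∀ a : Fin 2, (sGenC a).length = 9 := by decide +kernel

theorem isoBlocks_spec : ∀ n b, isoBlocks n b = countFrom isIso (n * 1024) (b * 1024)
  | 0, b => by simp [isoBlocks, countFrom]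
  | n + 1, b => by
    show forceNat (countFrom isIso 1024 (b * 1024)) (fun c => c + isoBlocks n (b + 1)) = _
    rw [forceNat_eq, isoBlocks_spec n (b + 1), show (n + 1) * 1024 = 1024 + n * 1024 by ring,
      countFrom_add, show (b + 1) * 1024 = b * 1024 + 1024 by ring]

/-- Codes of the nonzero isotropic vectors. -/
def isoCodes : Set ℕ := {v | v < 2 ^ 18 ∧ v ≠ 0 ∧ parity9 v = false}

theorem ncard_isoCodes : isoCodes.ncard = 130815 := by
  have h := iso_count
  rw [isoBlocks_spec, countFrom_spec, Nat.zero_mul, Nat.zero_add] at h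
  rw [← h, ← Set.ncard_coe_finset]
  refine congrArg Set.ncard (Set.ext fun v => ?_)
  simp only [isoCodes, Finset.coe_filter, Finset.mem_Ico, Set.mem_ofPred_eq, isIso,
    Bool.and_eq_true, Bool.not_eq_true', oddWt_eq]
  constructor
  · rintro ⟨h1, h2, h3⟩
    exact ⟨⟨Nat.zero_le _, by omega⟩, by rw [← Bool.not_eq_true]; exact fun e => h2 (Nat.eq_of_beq_eq_true e), h3⟩
  · rintro ⟨⟨-, h1⟩, h2, h3⟩
    exact ⟨by omega, fun e => by subst e; exact absurd h2 (by decide), h3⟩

theorem base_ok : (72 : ℕ) ∈ isoCodes := ⟨by norm_num, by norm_num, by decide +kernel⟩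

section

variable {F : Type*} [Field F] [Fintype F] {ω : F} (hG : Good F ω)
include hG

variable (F ω) in
omit hG in
/-- The stabiliser of the isotropic base vector. -/
def vStab (hG : Good F ω) : Subgroup ↥(threeJ3 F ω) where
  carrier := {g | (g.1 : Matrix F9 F9 F) *ᵥ val ω 72 = val ω 72}
  one_mem' := by show (1 : Matrix F9 F9 F) *ᵥ _ = _; rw [one_mulVec]
  mul_mem' := fun {a b} (ha : _ = _) (hb : _ = _) => by
    show ((a.1 : Matrix F9 F9 F) * (b.1 : Matrix F9 F9 F)) *ᵥ _ = _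
    rw [← mulVec_mulVec, hb, ha]
  inv_mem' := fun {a} (ha : _ = _) => by
    show ((a.1⁻¹ : GL F9 F) : Matrix F9 F9 F) *ᵥ _ = _
    nth_rewrite 1 [← ha]
    rw [mulVec_mulVec, Units.inv_mul, one_mulVec]

theorem sCode_mem : ∀ i < 1152,
    ∃ g ∈ vStab F ω hG, (g.1 : Matrix F9 F9 F) = toMat ω (sCode i) := by
  have key : ∀ l i, i < 1152 → bitField (PArr.get 23 InvData.sInfo i) 12 5 ≤ l →
      ∃ g ∈ vStab F ω hG, (g.1 : Matrix F9 F9 F) = toMat ω (sCode i) := by
    intro l
    induction l using Nat.strong_induction_on with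
    | _ l ih =>
      intro i hi hl
      have h := sCheck_all i hi
      simp only [sCheck, forceNat_eq, Bool.and_eq_true] at h
      obtain ⟨⟨-, h2⟩, -⟩ := h
      by_cases h0 : bitField (PArr.get 23 InvData.sInfo i) 12 5 = 0
      · rw [h0] at h2
        exact ⟨1, one_mem _, by rw [natListEq_eq h2, toMat_idM hG]; rfl⟩
      · rw [show Nat.beq (bitField (PArr.get 23 InvData.sInfo i) 12 5) 0 = false by
          rw [← Bool.not_eq_true]; exact fun e => h0 (Nat.eq_of_beq_eq_true e)] at h2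
        simp only [Bool.and_eq_true, Nat.blt_eq] at h2
        obtain ⟨⟨⟨hp, hlt⟩, ha⟩, he⟩ := h2
        obtain ⟨y, hy, ey⟩ := ih _ (lt_of_lt_of_le hlt hl) _ hp le_rfl
        obtain ⟨hw, ew⟩ := sGenW_ok ⟨_, ha⟩
        obtain ⟨x, hx⟩ := exists_el hG (ev_mem_hSet hG le_rfl hw)
        rw [ew] at hx
        refine ⟨x * y, mul_mem ?_ hy, ?_⟩
        · show (x.1 : Matrix F9 F9 F) *ᵥ _ = _
          rw [hx, ← val_app hG, sGen_fix ⟨_, ha⟩]
        · have he' := natListEq_eq he
          rw [mmF_eq (sGenC_length ⟨_, ha⟩) (sCode_spec _).1] at he'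
          rw [mat_mul hG, hx, ey, he', toMat_mm hG]
  exact fun i hi => key _ i hi le_rfl

/-- The element of a list entry. -/
noncomputable def sEl (i : Fin 1152) : ↥(vStab F ω hG) :=
  ⟨(sCode_mem hG i i.2).choose, (sCode_mem hG i i.2).choose_spec.1⟩

theorem sEl_mat (i : Fin 1152) : ((sEl hG i).1.1 : Matrix F9 F9 F) = toMat ω (sCode i) :=
  (sCode_mem hG i i.2).choose_spec.2

theorem sEl_inj : Function.Injective (sEl hG) := by
  intro i j h
  have e : sCode i = sCode j := by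
    refine code_eq hG (sCode_spec _).1 (sCode_spec _).1 (sCode_spec _).2 (sCode_spec _).2 ?_
    rw [← sEl_mat hG, ← sEl_mat hG, h]
  rcases lt_trichotomy i.1 j.1 with c | c | c
  · have := sCode_key_lt c j.2; rw [e] at this; omega
  · exact Fin.ext c
  · have := sCode_key_lt c i.2; rw [e] at this; omega

theorem card_vStab_le : Nat.card ↥(vStab F ω hG) ≤ 1152 := by
  classical
  letI : MulAction ↥(threeJ3 F ω) (F9 → F) :=
    { smul := fun g v => (g.1 : Matrix F9 F9 F) *ᵥ v
      one_smul := fun v => one_mulVec v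
      mul_smul := fun g h v => (mulVec_mulVec v (g.1 : Matrix F9 F9 F) (h.1 : Matrix F9 F9 F)).symm }
  have h1 : 130815 ≤ (MulAction.orbit ↥(threeJ3 F ω) (val ω 72)).ncard := by
    rw [← ncard_isoCodes]
    refine Set.ncard_le_ncard_of_injOn (fun v => val ω v) ?_ ?_
    · rintro v ⟨hv, h0, hp⟩
      have hs : ∑ z, val ω v z ^ 3 = 0 := by rw [sum_cube hG, hp]; simp
      obtain ⟨g, hg, c, hc, e⟩ := isotropic_reduce hG (val_ne_zero hG hv h0) hs
      obtain ⟨s, hs', es⟩ := scalar_mem hG (inv_ne_zero hc)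
      have hmem : s * g ∈ threeJ3 F ω := mul_mem hs' hg
      refine MulAction.mem_orbit_symm.1 ⟨⟨s * g, hmem⟩, ?_⟩
      show ((s * g : GL F9 F) : Matrix F9 F9 F) *ᵥ val ω v = val ω 72
      rw [Units.val_mul, ← mulVec_mulVec, e, es, smul_mulVec, one_mulVec, smul_smul,
        inv_mul_cancel₀ hc, one_smul]
    · rintro u ⟨hu, -⟩ v ⟨hv, -⟩ h
      exact val_inj hG hu hv h
  have hidx := MulAction.index_stabilizer ↥(threeJ3 F ω) (val ω 72)
  have h3 := (MulAction.stabilizer ↥(threeJ3 F ω) (val ω 72)).card_mul_index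
  rw [hidx, card_threeJ3 hG] at h3
  have e : Nat.card ↥(vStab F ω hG) =
      Nat.card (MulAction.stabilizer ↥(threeJ3 F ω) (val ω 72)) := rfl
  rw [e]
  have := Nat.mul_le_mul_left (Nat.card (MulAction.stabilizer ↥(threeJ3 F ω) (val ω 72))) h1
  rw [h3] at this
  omega

theorem sEl_surj : Function.Surjective (sEl hG) := by
  haveI : Finite ↥(vStab F ω hG) := by
    haveI : Finite (GL F9 F) := inferInstance
    infer_instance
  exact ((Function.Injective.bijective_of_nat_card_le (sEl_inj hG)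
    (by rw [Nat.card_eq_fintype_card (α := Fin 1152), Fintype.card_fin]; exact card_vStab_le hG))).2

theorem card_vStab : Nat.card ↥(vStab F ω hG) = 1152 := by
  rw [← Nat.card_eq_of_bijective _ ⟨sEl_inj hG, sEl_surj hG⟩, Nat.card_eq_fintype_card,
    Fintype.card_fin]

/-- The involution. -/
noncomputable def zEl : ↥(threeJ3 F ω) := (sEl hG ⟨0, by norm_num⟩).1

theorem zEl_mat : ((zEl hG).1 : Matrix F9 F9 F) = toMat ω InvData.zc := by
  rw [zEl, sEl_mat hG]; exact congrArg (toMat ω) zc_ok.1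

theorem zc_spec : InvData.zc.length = 9 ∧ ∀ c ∈ InvData.zc, c < 2 ^ 18 := by
  rw [← zc_ok.1]; exact sCode_spec 0

theorem idM_spec : idM.length = 9 ∧ ∀ c ∈ idM, c < 2 ^ 18 := by decide

theorem zEl_sq : zEl hG * zEl hG = 1 :=
  ext_mat hG (by rw [mat_mul hG, zEl_mat hG, ← toMat_mm hG, zc_ok.2.2, toMat_idM hG]; rfl)

theorem zEl_ne : zEl hG ≠ 1 := by
  intro h
  have e : toMat ω InvData.zc = toMat ω idM := by rw [← zEl_mat hG, h, toMat_idM hG]; rfl
  exact zc_ok.2.1 (code_eq hG (zc_spec hG).1 (idM_spec hG).1 (zc_spec hG).2 (idM_spec hG).2 e)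

/-- The position of an involution of the list. -/
def invIdx (n : Fin 51) : ℕ := InvData.invI.getD n 0

theorem invIdx_lt (n : Fin 51) : invIdx n < 1152 := by
  have h := invCheck_all n
  simp only [invCheck, Bool.and_eq_true, Nat.blt_eq] at h
  exact h.1.1

theorem invIdx_inj : Function.Injective invIdx := by
  intro m n h
  obtain ⟨hl, hn⟩ := invI_nodup
  have hm' : m.1 < InvData.invI.length := by omega
  have hn' : n.1 < InvData.invI.length := by omega
  rw [invIdx, invIdx, List.getD_eq_getElem _ _ hm', List.getD_eq_getElem _ _ hn'] at h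
  exact Fin.ext ((hn.getElem_inj_iff).1 h)

/-- An involution in the vector stabiliser. -/
noncomputable def invEl (n : Fin 51) : ↥(threeJ3 F ω) :=
  (sEl hG ⟨invIdx n, invIdx_lt hG n⟩).1

theorem invEl_inj : Function.Injective (invEl hG) := fun m n h => by
  have := sEl_inj hG (Subtype.ext h)
  exact invIdx_inj hG (congrArg Fin.val this)

theorem invEl_conj (n : Fin 51) :
    ∃ g : ↥(threeJ3 F ω), g * invEl hG n * g⁻¹ = zEl hG := by
  have h := invCheck_all n
  simp only [invCheck, Bool.and_eq_true, Nat.blt_eq] at h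
  obtain ⟨g, hg⟩ := exists_el hG (ev_mem_hSet hG le_rfl h.1.2)
  refine ⟨g, mul_inv_eq_iff_eq_mul.2 (ext_mat hG ?_)⟩
  rw [mat_mul hG, mat_mul hG, hg, invEl, sEl_mat hG, zEl_mat hG, ← toMat_mm hG, ← toMat_mm hG]
  exact congrArg (toMat ω) (natListEq_eq h.2)

/-- The involutions of the vector stabiliser are listed. -/
theorem exists_invEl {g : ↥(threeJ3 F ω)} (hS : g ∈ vStab F ω hG) (h2 : g * g = 1) (h1 : g ≠ 1) :
    ∃ n, invEl hG n = g := by
  obtain ⟨i, hi⟩ := sEl_surj hG ⟨g, hS⟩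
  have e : (g.1 : Matrix F9 F9 F) = toMat ω (sCode i) := by
    rw [← sEl_mat hG, hi]
  have h := sCheck_all i i.2
  simp only [sCheck, forceNat_eq, Bool.and_eq_true, Bool.or_eq_true, Bool.not_eq_true', Nat.blt_eq,
    mmF_eq (sCode_spec _).1 (sCode_spec _).1] at h
  obtain ⟨-, (h' | h') | ⟨h', h''⟩⟩ := h
  · have : mm (sCode i) (sCode i) = idM := by
      refine code_eq hG (mm_length _ _) (idM_spec hG).1 ?_ (idM_spec hG).2 ?_
      · intro c hc
        simp only [mm, List.mem_map] at hc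
        obtain ⟨k, -, rfl⟩ := hc
        exact app_bound (sCode_spec _).2 _
      · rw [toMat_mm hG, ← e, ← mat_mul hG, h2, toMat_idM hG]; rfl
    rw [this] at h'
    exact absurd h' (by decide)
  · exact absurd (ext_mat hG (y := 1) (by rw [e, natListEq_eq h', toMat_idM hG]; rfl)) h1
  · refine ⟨⟨_, h'⟩, ?_⟩
    have : invIdx ⟨_, h'⟩ = i.1 := Nat.eq_of_beq_eq_true h''
    rw [invEl, show (⟨invIdx ⟨_, h'⟩, invIdx_lt hG _⟩ : Fin 1152) = i from Fin.ext this, hi]

/-- An involution fixes a nonzero isotropic vector. -/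
theorem exists_fixed_isotropic {g : ↥(threeJ3 F ω)} (h2 : g * g = 1) :
    ∃ x : F9 → F, x ≠ 0 ∧ ∑ z, x z ^ 3 = 0 ∧ (g.1 : Matrix F9 F9 F) *ᵥ x = x := by
  classical
  set N : (F9 → F) →ₗ[F] (F9 → F) := Matrix.toLin' (g.1 : Matrix F9 F9 F) + LinearMap.id with hN
  have hadd : ∀ y : F9 → F, y + y = 0 := fun y => funext fun z => add_self hG (y z)
  have hsq : ∀ y, (g.1 : Matrix F9 F9 F) *ᵥ ((g.1 : Matrix F9 F9 F) *ᵥ y) = y := fun y => by
    rw [mulVec_mulVec, ← mat_mul hG, h2]; exact one_mulVec y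
  have hle : LinearMap.range N ≤ LinearMap.ker N := by
    rintro _ ⟨y, rfl⟩
    simp only [hN, LinearMap.mem_ker, LinearMap.add_apply, Matrix.toLin'_apply, LinearMap.id_apply,
      mulVec_add, hsq]
    rw [show y + (g.1 : Matrix F9 F9 F) *ᵥ y + ((g.1 : Matrix F9 F9 F) *ᵥ y + y) =
      (y + (g.1 : Matrix F9 F9 F) *ᵥ y) + (y + (g.1 : Matrix F9 F9 F) *ᵥ y) by abel]
    exact hadd _
  have hrn := LinearMap.finrank_range_add_finrank_ker N
  have hr := Submodule.finrank_mono hle
  rw [Module.finrank_pi F, show Fintype.card F9 = 9 from rfl] at hrn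
  have hk : 1 < Module.finrank F (LinearMap.ker N) := by omega
  obtain ⟨v, hv⟩ := Module.finrank_pos_iff_exists_ne_zero.1 (lt_trans zero_lt_one hk)
  obtain ⟨w, hw⟩ := exists_linearIndependent_pair_of_one_lt_finrank hk hv
  have hfix : ∀ y : ↥(LinearMap.ker N), (g.1 : Matrix F9 F9 F) *ᵥ y.1 = y.1 := fun y => by
    have h := LinearMap.mem_ker.1 y.2
    simp only [hN, LinearMap.add_apply, Matrix.toLin'_apply, LinearMap.id_apply] at h
    funext z
    have := congrFun h z
    simp only [Pi.add_apply, Pi.zero_apply] at this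
    linear_combination this - y.1 z * two_zero hG
  have hne : ∀ a : F, v.1 + a • w.1 ≠ 0 := fun a ha => by
    have := LinearIndependent.pair_iff.1 hw 1 a (Subtype.ext (by simpa using ha))
    exact one_ne_zero this.1
  have hv0 : v.1 ≠ 0 := fun h => hv (Subtype.ext h)
  have hw0 : w.1 ≠ 0 := fun h => by
    have := LinearIndependent.pair_iff.1 hw 0 1 (Subtype.ext (by simp [h]))
    exact one_ne_zero this.2
  have hq : ∀ y : F9 → F, ∑ z, y z ^ 3 = 0 ∨ ∑ z, y z ^ 3 = 1 := fun y => by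
    obtain ⟨k, -, rfl⟩ := val_surj hG y
    rw [sum_cube hG]; cases parity9 k <;> simp
  rcases hq v.1 with q1 | q1
  · exact ⟨v.1, hv0, q1, hfix v⟩
  rcases hq w.1 with q2 | q2
  · exact ⟨w.1, hw0, q2, hfix w⟩
  obtain ⟨h, hh⟩ : ∃ h, ∑ z, v.1 z ^ 2 * w.1 z = h := ⟨_, rfl⟩
  have four : ∀ x : F, x ^ 4 = x := fun x => by
    have := FiniteField.pow_card x
    rwa [hG.card] at this
  have hh2 : ∑ z, v.1 z * w.1 z ^ 2 = h ^ 2 := by
    haveI : CharP F 2 := CharTwo.of_one_ne_zero_of_two_eq_zero one_ne_zero (two_zero hG)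
    rw [← hh, CharTwo.sum_sq]
    refine Finset.sum_congr rfl fun z _ => ?_
    rw [mul_pow, ← pow_mul, four]
  have expand : ∀ a : F, ∑ z, (v.1 + a • w.1) z ^ 3 = 1 + a * h + a ^ 2 * h ^ 2 + a ^ 3 := by
    intro a
    calc ∑ z, (v.1 + a • w.1) z ^ 3
        = ∑ z, v.1 z ^ 3 + a * ∑ z, v.1 z ^ 2 * w.1 z + a ^ 2 * ∑ z, v.1 z * w.1 z ^ 2 +
            a ^ 3 * ∑ z, w.1 z ^ 3 := by
          simp only [Finset.mul_sum, ← Finset.sum_add_distrib]
          refine Finset.sum_congr rfl fun z _ => ?_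
          simp only [Pi.add_apply, Pi.smul_apply, smul_eq_mul]
          linear_combination (v.1 z ^ 2 * (a * w.1 z) + v.1 z * (a * w.1 z) ^ 2) * two_zero hG
      _ = _ := by rw [q1, q2, hh, hh2, mul_one]
  by_cases h0 : h = 0
  · refine ⟨v.1 + w.1, by simpa using hne 1, ?_, by rw [mulVec_add, hfix v, hfix w]⟩
    have := expand 1
    rw [h0, one_smul] at this
    rw [this]
    linear_combination two_zero hG
  · refine ⟨v.1 + h⁻¹ • w.1, hne _, ?_, by rw [mulVec_add, mulVec_smul, hfix v, hfix w]⟩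
    rw [expand, inv_mul_cancel₀ h0, inv_pow, inv_mul_cancel₀ (pow_ne_zero 2 h0)]
    have h3 : h ^ 3 = 1 := mul_left_cancel₀ h0 (by linear_combination four h)
    rw [inv_pow, h3, inv_one]
    linear_combination (2 : F) * two_zero hG

/-- All involutions of the triple cover are conjugate. -/
theorem isConj_zEl {g : ↥(threeJ3 F ω)} (h2 : g * g = 1) (h1 : g ≠ 1) :
    ∃ k : ↥(threeJ3 F ω), k * g * k⁻¹ = zEl hG := by
  obtain ⟨x, hx, hs, hfix⟩ := exists_fixed_isotropic hG h2
  obtain ⟨k₀, hk₀, c, hc, e⟩ := isotropic_reduce hG hx hs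
  let k : ↥(threeJ3 F ω) := ⟨k₀, hk₀⟩
  have hmem : k * g * k⁻¹ ∈ vStab F ω hG := by
    show ((k * g * k⁻¹).1 : Matrix F9 F9 F) *ᵥ val ω 72 = val ω 72
    have e72 : val ω 72 = c⁻¹ • ((k₀ : Matrix F9 F9 F) *ᵥ x) := by
      rw [e, smul_smul, inv_mul_cancel₀ hc, one_smul]
    rw [e72, mat_mul hG, mat_mul hG, mulVec_smul, ← mulVec_mulVec, ← mulVec_mulVec,
      mulVec_mulVec (M := ((k⁻¹).1 : Matrix F9 F9 F)),
      show ((k⁻¹).1 : Matrix F9 F9 F) * (k₀ : Matrix F9 F9 F) = 1 from Units.inv_mul k₀,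
      one_mulVec, hfix]
  obtain ⟨n, hn⟩ := exists_invEl hG hmem
    (by rw [show k * g * k⁻¹ * (k * g * k⁻¹) = k * (g * g) * k⁻¹ by group, h2]; group)
    (fun h => h1 (by simpa using h))
  obtain ⟨l, hl⟩ := invEl_conj hG n
  exact ⟨l * k, by rw [← hl, hn]; group⟩

/-- An involution of `J₃` lifts to an involution. -/
theorem exists_lift {x : J3 F ω} (hx : orderOf x = 2) :
    ∃ g : ↥(threeJ3 F ω), g * g = 1 ∧ g ≠ 1 ∧
      QuotientGroup.mk' (Subgroup.center ↥(threeJ3 F ω)) g = x := by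
  obtain ⟨g, rfl⟩ := QuotientGroup.mk'_surjective (Subgroup.center ↥(threeJ3 F ω)) x
  set π := QuotientGroup.mk' (Subgroup.center ↥(threeJ3 F ω))
  have hsq : π g * π g = 1 := by
    have h := pow_orderOf_eq_one (π g)
    rwa [hx, pow_two] at h
  have hc : g * g ∈ Subgroup.center ↥(threeJ3 F ω) := by
    rw [← QuotientGroup.eq_one_iff]; exact hsq
  have h3 : (g * g) ^ 3 = 1 := by
    have := congrArg Subtype.val
      (pow_card_eq_one' (x := (⟨g * g, hc⟩ : ↥(Subgroup.center ↥(threeJ3 F ω)))))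
    rw [card_center hG] at this
    exact this
  have hπ : π (g * g * g) = π g := by rw [map_mul, map_mul, hsq, one_mul]
  refine ⟨g * g * g, ?_, fun h => ?_, hπ⟩
  · rw [← h3]; simp only [pow_succ, pow_zero, one_mul, mul_assoc]
  · rw [h, map_one] at hπ
    rw [← hπ, orderOf_one] at hx
    norm_num at hx

/-- All involutions of `J₃` are conjugate. -/
theorem isConj_of_orderOf {x y : J3 F ω} (hx : orderOf x = 2) (hy : orderOf y = 2) :
    IsConj x y := by
  obtain ⟨g, g2, g1, rfl⟩ := exists_lift hG hx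
  obtain ⟨g', g2', g1', rfl⟩ := exists_lift hG hy
  obtain ⟨k, hk⟩ := isConj_zEl hG g2 g1
  obtain ⟨k', hk'⟩ := isConj_zEl hG g2' g1'
  refine (MonoidHom.map_isConj _ ?_)
  exact (isConj_iff.2 ⟨k, hk⟩).trans (isConj_iff.2 ⟨k', hk'⟩).symm

end

end Cfsg.Agent.H15.J3
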